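import Cfsg.Agent.Lib.Helper59.FO.Base
import Cfsg.Agent.S0144

/-! FO farm (helper59, S4068), piece A1 (written by helper52). -/

set_option autoImplicit false
open Subgroup

namespace Cfsg.Agent.Lib.Helper59.FO

namespace A1

/-- Burnside: at most two prime divisors implies solvable. -/
theorem solvable_of_le_two {H : Type*} [Group H] [Finite H]
    (h : (Nat.card H).primeFactors.card ≤ 2) : Group.IsSolvable H := by
  have hn : Nat.card H ≠ 0 := Nat.card_pos.ne'
  have hprod := Nat.prod_factorization_pow_eq_self hn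
  rw [Finsupp.prod, Nat.support_factorization] at hprod
  have hcases : (Nat.card H).primeFactors.card = 0 ∨ (Nat.card H).primeFactors.card = 1 ∨
      (Nat.card H).primeFactors.card = 2 := by omega
  rcases hcases with h0 | h1 | h2
  · rw [Finset.card_eq_zero] at h0
    rw [h0, Finset.prod_empty] at hprod
    exact Cfsg.Agent.S0144.result 2 3 0 0 Nat.prime_two Nat.prime_three (by rw [← hprod]; norm_num)
  · obtain ⟨p, hp⟩ := Finset.card_eq_one.1 h1
    have hpp : p.Prime := Nat.prime_of_mem_primeFactors (by rw [hp]; exact Finset.mem_singleton_self p)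
    rw [hp, Finset.prod_singleton] at hprod
    exact Cfsg.Agent.S0144.result p 2 ((Nat.card H).factorization p) 0 hpp Nat.prime_two
      (by rw [pow_zero, mul_one]; exact hprod.symm)
  · obtain ⟨p, q, hpq, hs⟩ := Finset.card_eq_two.1 h2
    have hpp : p.Prime := Nat.prime_of_mem_primeFactors (by rw [hs]; simp)
    have hqq : q.Prime := Nat.prime_of_mem_primeFactors (by rw [hs]; simp)
    rw [hs, Finset.prod_pair hpq] at hprod
    exact Cfsg.Agent.S0144.result p q _ _ hpp hqq hprod.symm

end A1

variable {G : Type*} [Group G] [Finite G]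

-- A1
theorem orders_of_four_orbits (hns : ¬ Group.IsSolvable G)
    (h4 : Nat.card (MulAction.orbitRel.Quotient (MulAut G) G) = 4) :
    (Nat.card G).primeFactors.card = 3 ∧ (∀ x : G, x ≠ 1 → (orderOf x).Prime) ∧
      ∀ x y : G, orderOf x = orderOf y → ∃ α : MulAut G, α x = y := by
  classical
  have hfin : Finite (MulAction.orbitRel.Quotient (MulAut G) G) :=
    inferInstanceAs (Finite (Quotient _))
  set T : Finset ℕ := insert 1 (Nat.card G).primeFactors with hT
  have hex : ∀ n : T, ∃ x : G, orderOf x = n := by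
    rintro ⟨n, hn⟩
    rw [hT, Finset.mem_insert] at hn
    rcases hn with rfl | hn
    · exact ⟨1, orderOf_one⟩
    · have : Fact n.Prime := ⟨Nat.prime_of_mem_primeFactors hn⟩
      exact exists_prime_orderOf_dvd_card' n (Nat.dvd_of_mem_primeFactors hn)
  choose f hf using hex
  let mk : G → MulAction.orbitRel.Quotient (MulAut G) G := fun x => Quotient.mk _ x
  have hmk : ∀ x y : G, mk x = mk y → ∃ α : MulAut G, α y = x := by
    intro x y h
    have h' : x ∈ MulAction.orbit (MulAut G) y := Quotient.exact h
    obtain ⟨α, hα⟩ := h'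
    exact ⟨α, hα⟩
  have hord : ∀ x y : G, mk x = mk y → orderOf x = orderOf y := by
    intro x y h
    obtain ⟨α, hα⟩ := hmk x y h
    rw [← hα]
    exact α.orderOf_eq y
  have hFinj : Function.Injective (fun n : T => mk (f n)) := by
    intro n m h
    have h' := hord _ _ h
    rw [hf, hf] at h'
    exact Subtype.ext h'
  have hTc : Nat.card T = T.card := by rw [Nat.card_eq_fintype_card, Fintype.card_coe]
  have hcard : T.card ≤ 4 := by
    have h' := Nat.card_le_card_of_injective _ hFinj
    rwa [h4, hTc] at h'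
  have h1 : 1 ∉ (Nat.card G).primeFactors := fun h =>
    Nat.not_prime_one (Nat.prime_of_mem_primeFactors h)
  have hTc2 : T.card = (Nat.card G).primeFactors.card + 1 := by
    rw [hT, Finset.card_insert_of_notMem h1]
  have h3 : (Nat.card G).primeFactors.card = 3 := by
    by_contra hne
    exact hns (A1.solvable_of_le_two (by omega))
  have hsurj : Function.Surjective (fun n : T => mk (f n)) :=
    (Function.Injective.bijective_of_nat_card_le hFinj (by rw [h4, hTc, hTc2, h3])).2
  have hkey : ∀ x : G, ∃ n : T, mk (f n) = mk x ∧ orderOf x = n := by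
    intro x
    obtain ⟨n, hn⟩ := hsurj (mk x)
    exact ⟨n, hn, by rw [← hord _ _ hn, hf]⟩
  refine ⟨h3, ?_, ?_⟩
  · intro x hx
    obtain ⟨⟨n, hn⟩, -, hxn⟩ := hkey x
    rw [hxn]
    rw [hT, Finset.mem_insert] at hn
    rcases hn with rfl | hn
    · exact absurd (orderOf_eq_one_iff.1 hxn) hx
    · exact Nat.prime_of_mem_primeFactors hn
  · intro x y hxy
    obtain ⟨n, hn, hxn⟩ := hkey x
    obtain ⟨m, hm, hym⟩ := hkey y
    have hnm : n = m := Subtype.ext (by rw [← hxn, ← hym, hxy])
    subst hnm
    exact hmk y x (hm.symm.trans hn)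

end Cfsg.Agent.Lib.Helper59.FO
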