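import Cfsg.Agent.Lib.Helper59.FO.A1

/-! FO farm (helper59, S4068), piece A2 (written by helper52). -/

set_option autoImplicit false
open Subgroup

namespace Cfsg.Agent.Lib.Helper59.FO

variable {G : Type*} [Group G] [Finite G]

-- A2
theorem char_eq_top (hns : ¬ Group.IsSolvable G) (h3 : (Nat.card G).primeFactors.card = 3)
    (hp : ∀ x : G, x ≠ 1 → (orderOf x).Prime)
    (ht : ∀ x y : G, orderOf x = orderOf y → ∃ α : MulAut G, α x = y)
    (C : Subgroup G) (hC : ∀ (α : MulAut G) (x : G), x ∈ C → α x ∈ C) (hne : C ≠ ⊥) : C = ⊤ := by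
  by_contra htop
  have hCn : C.Normal := ⟨fun x hx g => hC (MulAut.conj g) x hx⟩
  have hdisj : Disjoint (Nat.card C).primeFactors C.index.primeFactors := by
    rw [Finset.disjoint_left]
    intro s hs hs'
    have hsp : s.Prime := Nat.prime_of_mem_primeFactors hs
    have : Fact s.Prime := ⟨hsp⟩
    obtain ⟨c, hc⟩ := exists_prime_orderOf_dvd_card' (G := C) s (Nat.dvd_of_mem_primeFactors hs)
    rw [← Subgroup.orderOf_coe] at hc
    obtain ⟨P⟩ : Nonempty (Sylow s G) := inferInstance
    have hPC : (P : Subgroup G) ≤ C := by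
      intro x hx
      by_cases hx1 : x = 1
      · rw [hx1]; exact one_mem C
      · have h1 := hp x hx1
        obtain ⟨k, hk⟩ := IsPGroup.iff_orderOf.1 P.2 ⟨x, hx⟩
        rw [Subgroup.orderOf_mk] at hk
        have h2 : orderOf x = s := by
          rw [hk] at h1 ⊢
          have hk1 : k = 1 := (Nat.Prime.eq_one_of_pow h1)
          rw [hk1, pow_one]
        obtain ⟨α, hα⟩ := ht (c : G) x (by rw [hc, h2])
        rw [← hα]
        exact hC α _ c.2
    exact P.not_dvd_index ((Nat.dvd_of_mem_primeFactors hs').trans (index_dvd_of_le hPC))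
  have hmul : Nat.card G = Nat.card C * C.index := C.card_mul_index.symm
  have hc0 : Nat.card C ≠ 0 := Nat.card_pos.ne'
  have hi0 : C.index ≠ 0 := index_ne_zero_of_finite
  have hsum : (Nat.card C).primeFactors.card + C.index.primeFactors.card = 3 := by
    rw [← Finset.card_union_of_disjoint hdisj, ← Nat.primeFactors_mul hc0 hi0, ← hmul, h3]
  have h1 : (Nat.card C).primeFactors.card ≠ 0 := by
    intro h
    rw [Finset.card_eq_zero, Nat.primeFactors_eq_empty] at h
    rcases h with h | h
    · exact hc0 h
    · exact hne (card_eq_one.1 h)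
  have h2 : C.index.primeFactors.card ≠ 0 := by
    intro h
    rw [Finset.card_eq_zero, Nat.primeFactors_eq_empty] at h
    rcases h with h | h
    · exact hi0 h
    · exact htop (index_eq_one.1 h)
  apply hns
  rw [Group.isSolvable_iff_subgroup_quotient C]
  refine ⟨A1.solvable_of_le_two (by omega), A1.solvable_of_le_two ?_⟩
  rw [← index_eq_card]
  omega

end Cfsg.Agent.Lib.Helper59.FO
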