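import Cfsg.Agent.Lib.Helper59.FO.A2
import Cfsg.Agent.Lib.Helper47.PCore

/-! FO farm (helper59, S4068), piece A3 (written by helper52). -/

set_option autoImplicit false
set_option linter.unusedSectionVars false
open Subgroup

namespace Cfsg.Agent.Lib.Helper59.FO

variable {G : Type*} [Group G] [Finite G]

namespace A3

theorem commute_order (hp : ∀ x : G, x ≠ 1 → (orderOf x).Prime) {x y : G} (hx : x ≠ 1) (hy : y ≠ 1)
    (h : Commute x y) : orderOf x = orderOf y := by
  by_contra hne
  have hpx := hp x hx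
  have hpy := hp y hy
  have hco : (orderOf x).Coprime (orderOf y) := (Nat.coprime_primes hpx hpy).2 hne
  have ho := h.orderOf_mul_eq_mul_orderOf_of_coprime hco
  have hxy : x * y ≠ 1 := by
    intro h1
    rw [h1, orderOf_one] at ho
    have := Nat.eq_one_of_mul_eq_one_right ho.symm
    exact hpx.one_lt.ne' this
  have hpxy := hp _ hxy
  rw [ho] at hpxy
  exact Nat.not_prime_mul hpx.one_lt.ne' hpy.one_lt.ne' hpxy

theorem min_normal_eq_top (hns : ¬ Group.IsSolvable G) (h3 : (Nat.card G).primeFactors.card = 3)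
    (hp : ∀ x : G, x ≠ 1 → (orderOf x).Prime)
    (ht : ∀ x y : G, orderOf x = orderOf y → ∃ α : MulAut G, α x = y)
    (N : Subgroup G) (hN : N.Normal) (hne : N ≠ ⊥)
    (hmin : ∀ M : Subgroup G, M.Normal → M ≠ ⊥ → M ≤ N → N ≤ M) : N = ⊤ := by
  by_cases hinv : ∀ (α : MulAut G) (x : G), x ∈ N → α x ∈ N
  · exact char_eq_top hns h3 hp ht N hinv hne
  exfalso
  push Not at hinv
  obtain ⟨α, x, hx, hαx⟩ := hinv
  set N' := N.map α.toMonoidHom with hN'
  have hN'n : N'.Normal := hN.map _ α.surjective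
  have hcard : Nat.card N' = Nat.card N := card_map_of_injective α.injective
  have hdis : N ⊓ N' = ⊥ := by
    by_contra hb
    have h1 : N ≤ N ⊓ N' := hmin _ (normal_inf_normal N N') hb inf_le_left
    have h2 : N = N' := eq_of_le_of_card_ge (h1.trans inf_le_right) hcard.le
    apply hαx
    rw [h2]
    exact mem_map_of_mem _ hx
  have hcomm := commute_of_normal_of_disjoint N N' hN hN'n (disjoint_iff.2 hdis)
  have hN'1 : N' ≠ ⊥ := by
    intro h
    rw [h, card_bot] at hcard
    exact hne (card_eq_one.1 hcard.symm)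
  obtain ⟨y0, hy0, hy01⟩ : ∃ y ∈ N', y ≠ 1 := by
    by_contra hcon
    push Not at hcon
    exact hN'1 ((eq_bot_iff_forall N').2 hcon)
  have hs : (orderOf y0).Prime := hp y0 hy01
  have : Fact (orderOf y0).Prime := ⟨hs⟩
  have hNs : IsPGroup (orderOf y0) N := by
    intro g
    refine ⟨1, ?_⟩
    by_cases hg : (g : G) = 1
    · have : g = 1 := Subtype.ext hg
      rw [this, one_pow]
    · have h1 := commute_order hp hg hy01 (hcomm g y0 g.2 hy0)
      apply Subtype.ext
      rw [pow_one, ← h1]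
      simp [pow_orderOf_eq_one]
  have hle : N ≤ Cfsg.pCore (orderOf y0) G := Cfsg.Agent.Lib.Helper47.le_pCore hN hNs
  have hchar : (Cfsg.pCore (orderOf y0) G).Characteristic :=
    Cfsg.Agent.Lib.Helper47.pCore_characteristic
  have htop : Cfsg.pCore (orderOf y0) G = ⊤ := by
    apply char_eq_top hns h3 hp ht
    · intro β z hz
      have h1 := characteristic_iff_map_eq.1 hchar β
      rw [← h1]
      exact mem_map_of_mem _ hz
    · intro h
      rw [h, le_bot_iff] at hle
      exact hne hle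
  have hG : IsPGroup (orderOf y0) (⊤ : Subgroup G) := htop ▸ Cfsg.Agent.Lib.Helper47.pCore_isPGroup
  have hG' : IsPGroup (orderOf y0) G := hG.of_equiv topEquiv
  have hnil : Group.IsNilpotent G := hG'.isNilpotent
  exact hns inferInstance

end A3

-- A3
theorem simple_of (hns : ¬ Group.IsSolvable G) (h3 : (Nat.card G).primeFactors.card = 3)
    (hp : ∀ x : G, x ≠ 1 → (orderOf x).Prime)
    (ht : ∀ x y : G, orderOf x = orderOf y → ∃ α : MulAut G, α x = y) : IsSimpleGroup G := by
  have hnt : Nontrivial G := by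
    by_contra h
    rw [not_nontrivial_iff_subsingleton] at h
    exact hns inferInstance
  refine ⟨fun H hH => ?_⟩
  by_cases hb : H = ⊥
  · exact Or.inl hb
  right
  obtain ⟨N, hN⟩ := exists_minimal_of_wellFoundedLT
    (fun N : Subgroup G => N.Normal ∧ N ≠ ⊥ ∧ N ≤ H) ⟨H, hH, hb, le_rfl⟩
  have h1 : N = ⊤ := A3.min_normal_eq_top hns h3 hp ht N hN.1.1 hN.1.2.1
    (fun M hM hM1 hMN => hN.2 ⟨hM, hM1, hMN.trans hN.1.2.2⟩ hMN)
  exact top_le_iff.1 (h1 ▸ hN.1.2.2)

end Cfsg.Agent.Lib.Helper59.FO
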