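import Cfsg.Agent.Lib.Helper59.FO.Base

set_option autoImplicit false

namespace Cfsg.Agent.Lib.Helper59.FO

set_option maxHeartbeats 2000000 in
theorem ar_one {u X Y k i I nq nr iq a : ℕ} (hu : u = 2 ^ a) (hu2 : 2 ≤ u) (hX : 3 ≤ X) (hY : 3 ≤ Y)
    (hk3 : 3 ≤ k) (hkodd : Odd k) (hku : k ∣ u - 1)
    (hik : i * k = X * Y) (hI : I = i * (u - 1)) (hnq : nq = iq * (X - 1)) (hiq : 2 * iq = u * Y)
    (hnr : 3 * nr + u * X ≤ u * X * Y) (hg : u * X * Y = 1 + I + nq + nr)
    (hcount : I * I = I * (u - 1) + nq * X) : False := by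
  obtain ⟨v, hv⟩ : ∃ v, u = v + 1 := ⟨u - 1, by omega⟩
  obtain ⟨x, rfl⟩ : ∃ x, X = x + 1 := ⟨X - 1, by omega⟩
  have hv1 : 1 ≤ v := by omega
  have huv : u - 1 = v := by omega
  rw [huv] at hku hI hcount
  simp only [Nat.add_sub_cancel] at hnq
  have hi0 : 0 < i := by
    rcases Nat.eq_zero_or_pos i with h | h
    · rw [h, zero_mul] at hik
      have : 0 < (x + 1) * Y := by positivity
      omega
    · exact h
  subst hnq hI
  -- work in ℤ
  have hikz : (i : ℤ) * k = (x + 1) * Y := by exact_mod_cast hik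
  have hiqz : 2 * (iq : ℤ) = u * Y := by exact_mod_cast hiq
  have hnrz : 3 * (nr : ℤ) + u * (x + 1) ≤ u * (x + 1) * Y := by exact_mod_cast hnr
  have hgz : (u : ℤ) * (x + 1) * Y = 1 + i * v + iq * x + nr := by exact_mod_cast hg
  have hcz : ((i : ℤ) * v) * (i * v) = (i * v) * v + iq * x * (x + 1) := by exact_mod_cast hcount
  have huz : (u : ℤ) = v + 1 := by exact_mod_cast hv
  have hiz : (0 : ℤ) < i := by exact_mod_cast hi0
  have hvz : (1 : ℤ) ≤ v := by exact_mod_cast hv1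
  have hxz : (2 : ℤ) ≤ x := by
    have : 2 ≤ x := by omega
    exact_mod_cast this
  have hYz : (3 : ℤ) ≤ Y := by exact_mod_cast hY
  have hkz : (3 : ℤ) ≤ k := by exact_mod_cast hk3
  -- k < 6
  have hk6 : k < 6 := by
    by_contra hge
    have hge' : (6 : ℤ) ≤ k := by
      have : 6 ≤ k := by omega
      exact_mod_cast this
    have e1 : 6 * ((iq : ℤ) * x) = 3 * (u * Y * x) := by rw [← hiqz]; ring
    have e2 : (u : ℤ) * (x + 1) * Y + 3 * (u * Y) + 2 * (u * (x + 1)) ≤ 6 + 6 * (i * v) := by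
      nlinarith [hgz, hnrz, e1]
    have e3 : (u : ℤ) * (x + 1) * Y = u * (i * k) := by rw [hikz]; ring
    have e4 : (u : ℤ) * (i * 6) ≤ u * (i * k) := by
      have : (0 : ℤ) ≤ u * i := by rw [huz]; positivity
      nlinarith
    have e5 : (6 : ℤ) < 3 * (u * Y) := by rw [huz]; nlinarith
    have e6 : (0 : ℤ) ≤ 2 * (u * (x + 1)) := by rw [huz]; positivity
    have e7 : (u : ℤ) * (i * 6) = 6 * (i * v) + 6 * i := by rw [huz]; ring
    linarith
  -- the key equation
  have hE : 2 * (((x : ℤ) + 1) * Y - k) * (v * v) = u * (k * k) * x := by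
    have e1 : 2 * ((iq : ℤ) * x * (x + 1)) = u * (i * k) * x := by
      rw [hikz]
      calc 2 * ((iq : ℤ) * x * (x + 1)) = (2 * iq) * x * (x + 1) := by ring
        _ = u * ((x + 1) * Y) * x := by rw [hiqz]; ring
    have e2 : (i : ℤ) * (2 * ((i : ℤ) - 1) * (v * v)) = i * (u * k * x) := by
      have : 2 * (((i : ℤ) * v) * (i * v) - (i * v) * v) = u * (i * k) * x := by
        rw [← e1]; linarith [hcz]
      calc (i : ℤ) * (2 * ((i : ℤ) - 1) * (v * v)) = 2 * (((i : ℤ) * v) * (i * v) - (i * v) * v) := by ring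
        _ = i * (u * k * x) := by rw [this]; ring
    have e3 := mul_left_cancel₀ hiz.ne' e2
    calc 2 * (((x : ℤ) + 1) * Y - k) * (v * v) = k * (2 * ((i : ℤ) - 1) * (v * v)) := by
          rw [← hikz]; ring
      _ = u * (k * k) * x := by rw [e3]; ring
  have hk35 : k = 3 ∨ k = 5 := by
    obtain ⟨m, hm⟩ := hkodd
    omega
  rcases hk35 with rfl | rfl
  · -- k = 3
    have hv3 : 3 ≤ v := Nat.le_of_dvd (by omega) hku
    have hv3z : (3 : ℤ) ≤ v := by exact_mod_cast hv3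
    push_cast at hE
    rw [huz] at hE
    have h1 : 9 * ((v : ℤ) + 1) ≤ 4 * (v * v) := by
      have : (0 : ℤ) ≤ (4 * v + 3) * (v - 3) := mul_nonneg (by linarith) (by linarith)
      linarith [this, (by ring : (4 * (v : ℤ) + 3) * (v - 3) = 4 * (v * v) - 9 * v - 9)]
    have h2 : 2 * (((x : ℤ) + 1) * Y - 3) * (v * v) ≤ 4 * (v * v) * x := by
      rw [hE]
      have : 9 * ((v : ℤ) + 1) * x ≤ 4 * (v * v) * x := mul_le_mul_of_nonneg_right h1 (by linarith)
      linarith [this, (by ring : ((v : ℤ) + 1) * (3 * 3) * x = 9 * ((v : ℤ) + 1) * x)]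
    have hvv : (0 : ℤ) < v * v := by positivity
    have h3 : 2 * (((x : ℤ) + 1) * Y - 3) ≤ 4 * x := by
      have : 2 * (((x : ℤ) + 1) * Y - 3) * (v * v) ≤ (4 * x) * (v * v) := by linarith [h2, (by ring : 4 * ((v : ℤ) * v) * x = (4 * x) * (v * v))]
      exact le_of_mul_le_mul_right this hvv
    have h4 : ((x : ℤ) + 1) * 3 ≤ (x + 1) * Y := mul_le_mul_of_nonneg_left hYz (by linarith)
    linarith
  · -- k = 5
    have hv15 : 15 ≤ v := by
      rcases Nat.lt_or_ge a 4 with ha | ha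
      · exfalso
        interval_cases a <;> simp at hu <;> omega
      · have : 2 ^ 4 ≤ 2 ^ a := Nat.pow_le_pow_right (by norm_num) ha
        omega
    have hv15z : (15 : ℤ) ≤ v := by exact_mod_cast hv15
    push_cast at hE
    rw [huz] at hE
    have h1 : 14 * ((v : ℤ) + 1) ≤ v * v := by
      have : (0 : ℤ) ≤ (v + 1) * (v - 15) := mul_nonneg (by linarith) (by linarith)
      linarith [this, (by ring : ((v : ℤ) + 1) * (v - 15) = v * v - 14 * v - 15)]
    have h4 : ((x : ℤ) + 1) * 3 ≤ (x + 1) * Y := mul_le_mul_of_nonneg_left hYz (by linarith)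
    have hpos : (0 : ℤ) ≤ 2 * (((x : ℤ) + 1) * Y - 5) := by linarith
    have h2 : 2 * (((x : ℤ) + 1) * Y - 5) * (14 * ((v : ℤ) + 1)) ≤ ((v : ℤ) + 1) * 25 * x := by
      rw [← hE]
      exact mul_le_mul_of_nonneg_left h1 hpos
    have hv0 : (0 : ℤ) < (v : ℤ) + 1 := by positivity
    have h3 : 28 * (((x : ℤ) + 1) * Y - 5) ≤ 25 * x := by
      have : (28 * (((x : ℤ) + 1) * Y - 5)) * ((v : ℤ) + 1) ≤ (25 * x) * ((v : ℤ) + 1) := by
        linarith [h2, (by ring : 2 * (((x : ℤ) + 1) * Y - 5) * (14 * ((v : ℤ) + 1)) = (28 * (((x : ℤ) + 1) * Y - 5)) * ((v : ℤ) + 1)),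
          (by ring : ((v : ℤ) + 1) * 25 * x = (25 * x) * ((v : ℤ) + 1))]
      exact le_of_mul_le_mul_right this hv0
    linarith

end Cfsg.Agent.Lib.Helper59.FO
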