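import Cfsg.Agent.Lib.Helper59.FO.Base

set_option autoImplicit false

namespace Cfsg.Agent.Lib.Helper59.FO

theorem ar_two_a {u X Y k i I nq nr iq ir : ℕ} (hu2 : 2 ≤ u) (hX : 3 ≤ X) (hY : 3 ≤ Y) (hk : 0 < k)
    (hik : i * k = X * Y) (hI : I = i * (u - 1)) (hnq : nq = iq * (X - 1)) (hiq : 2 * iq = u * Y)
    (hnr : nr = ir * (Y - 1)) (hir : 2 * ir = u * X) (hg : u * X * Y = 1 + I + nq + nr)
    (hcount : I * I = I * (u - 1) + nq * X + nr * Y) :
    k = u - 1 ∧ 2 * (X * Y) + 2 = u * (X + Y) := by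
  obtain ⟨v, rfl⟩ : ∃ v, u = v + 1 := ⟨u - 1, by omega⟩
  obtain ⟨x, rfl⟩ : ∃ x, X = x + 1 := ⟨X - 1, by omega⟩
  obtain ⟨y, rfl⟩ : ∃ y, Y = y + 1 := ⟨Y - 1, by omega⟩
  simp only [Nat.add_sub_cancel] at *
  subst hnq hnr
  zify at *
  have h1 : 2 * (I : ℤ) + 2 = (v + 1) * ((x + 1) + (y + 1)) := by
    have e1 : 2 * ((iq : ℤ) * x) = (v + 1) * (y + 1) * x := by rw [← hiq]; ring
    have e2 : 2 * ((ir : ℤ) * y) = (v + 1) * (x + 1) * y := by rw [← hir]; ring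
    linarith [hg, e1, e2]
  have h2 : (I : ℤ) * ((v + 1) * (x + y)) = (x + 1) * (y + 1) * ((v + 1) * (x + y)) := by
    have e1 : 2 * ((iq : ℤ) * x * (x + 1)) = (v + 1) * (y + 1) * x * (x + 1) := by rw [← hiq]; ring
    have e2 : 2 * ((ir : ℤ) * y * (y + 1)) = (v + 1) * (x + 1) * y * (y + 1) := by rw [← hir]; ring
    have e3 : 2 * ((I : ℤ) - v) = (v + 1) * (x + y) := by linarith
    have e4 : 2 * ((I : ℤ) * (I - v)) = (v + 1) * (x + 1) * (y + 1) * (x + y) := by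
      have : (I : ℤ) * (I - v) = iq * x * (x + 1) + ir * y * (y + 1) := by linarith [hcount]
      rw [this]; linarith [e1, e2]
    calc (I : ℤ) * ((v + 1) * (x + y)) = 2 * (I * (I - v)) := by rw [← e3]; ring
      _ = (x + 1) * (y + 1) * ((v + 1) * (x + y)) := by rw [e4]; ring
  have hpos : ((v : ℤ) + 1) * (x + y) ≠ 0 := by
    have : (0 : ℤ) < (v + 1) * (x + y) := by
      have hx : (2 : ℤ) ≤ x := by linarith
      positivity
    exact this.ne'
  have h3 : (I : ℤ) = (x + 1) * (y + 1) := mul_right_cancel₀ hpos h2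
  refine ⟨?_, by rw [← h3]; linarith⟩
  have hi : (i : ℤ) ≠ 0 := by
    intro h0
    rw [h0, zero_mul] at hI
    rw [hI] at h3
    have hx : (2 : ℤ) ≤ x := by linarith
    have hy : (2 : ℤ) ≤ y := by linarith
    have : (0 : ℤ) < (x + 1) * (y + 1) := by positivity
    omega
  have : (i : ℤ) * k = i * v := by rw [hik, ← hI, h3]
  exact mul_left_cancel₀ hi this

end Cfsg.Agent.Lib.Helper59.FO
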