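import Cfsg.Agent.Lib.Helper59.FO.Base

set_option autoImplicit false

namespace Cfsg.Agent.Lib.Helper59.FO

theorem ar_two_b {u X Y q b : ℕ} (hq : q.Prime) (hq3 : 3 ≤ q) (hu : u = q + 1) (hX : X = q ^ b) (hb : 1 ≤ b)
    (hY : 3 ≤ Y) (h : 2 * (X * Y) + 2 = u * (X + Y)) : X = q ∧ Y = q + 2 := by
  have hodd : Odd q := hq.odd_of_ne_two (by omega)
  obtain ⟨w, hw⟩ := hodd
  -- q = 2 * w + 1, u = 2 * (w + 1)
  subst hu
  have hw1 : 1 ≤ w := by omega
  have key : ((Y : ℤ) - (w + 1)) * ((X : ℤ) - (w + 1)) = (w + 1) ^ 2 - 1 := by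
    have h' : 2 * ((X : ℤ) * Y) + 2 = (q + 1) * (X + Y) := by exact_mod_cast h
    have hq' : (q : ℤ) = 2 * w + 1 := by exact_mod_cast hw
    rw [hq'] at h'
    nlinarith [h']
  rcases Nat.lt_or_ge b 2 with hb2 | hb2
  · have hb1 : b = 1 := by omega
    rw [hb1, pow_one] at hX
    refine ⟨hX, ?_⟩
    have hX' : (X : ℤ) = 2 * w + 1 := by rw [hX]; exact_mod_cast hw
    rw [hX'] at key
    have hw0 : (w : ℤ) ≠ 0 := by exact_mod_cast (by omega : w ≠ 0)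
    have : ((Y : ℤ) - (w + 1)) * w = (w + 2) * w := by nlinarith [key]
    have h2 := mul_right_cancel₀ hw0 this
    have : (Y : ℤ) = 2 * w + 3 := by linarith
    have h3 : Y = 2 * w + 3 := by exact_mod_cast this
    omega
  · exfalso
    have hXq : q ^ 2 ≤ X := by rw [hX]; exact Nat.pow_le_pow_right (by omega) hb2
    have hXq' : ((2 * w + 1 : ℕ) : ℤ) ^ 2 ≤ X := by rw [← hw]; exact_mod_cast hXq
    push_cast at hXq'
    have hwz : (1 : ℤ) ≤ w := by exact_mod_cast hw1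
    have hbig : ((w : ℤ) + 1) ^ 2 - 1 < (X : ℤ) - (w + 1) := by nlinarith
    have hpos : (0 : ℤ) < ((w : ℤ) + 1) ^ 2 - 1 := by nlinarith
    rcases lt_or_ge ((Y : ℤ) - (w + 1)) 1 with hlt | hge
    · have h0 : (Y : ℤ) - (w + 1) ≤ 0 := by omega
      have : ((Y : ℤ) - (w + 1)) * ((X : ℤ) - (w + 1)) ≤ 0 :=
        mul_nonpos_of_nonpos_of_nonneg h0 (by linarith)
      linarith
    · have : (X : ℤ) - (w + 1) ≤ ((Y : ℤ) - (w + 1)) * ((X : ℤ) - (w + 1)) := by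
        have hx0 : (0 : ℤ) ≤ (X : ℤ) - (w + 1) := by linarith
        nlinarith
      linarith

end Cfsg.Agent.Lib.Helper59.FO
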