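import Cfsg.Agent.Lib.Helper59.FO.Base

set_option autoImplicit false

namespace Cfsg.Agent.Lib.Helper59.FO

namespace AR4

theorem three_pow {a c : ℕ} (ha : 2 ≤ a) (h : 3 ^ c = 2 ^ a + 1) : a = 3 := by
  have h4 : 4 ∣ 2 ^ a := by
    obtain ⟨e, rfl⟩ : ∃ e, a = 2 + e := ⟨a - 2, by omega⟩
    exact ⟨2 ^ e, by rw [pow_add]; norm_num⟩
  have hmod : 3 ^ c % 4 = 1 := by rw [h]; omega
  rcases Nat.even_or_odd' c with ⟨d, hd | hd⟩
  · subst hd
    have hfac : (3 ^ d - 1) * (3 ^ d + 1) = 2 ^ a := by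
      have h1 : 1 ≤ 3 ^ d := Nat.one_le_pow _ _ (by norm_num)
      obtain ⟨m, hm⟩ : ∃ m, 3 ^ d = m + 1 := ⟨3 ^ d - 1, by omega⟩
      have : 3 ^ (2 * d) = (3 ^ d) * (3 ^ d) := by rw [two_mul, pow_add]
      rw [this, hm] at h
      rw [hm, Nat.add_sub_cancel]
      nlinarith
    obtain ⟨i, -, hi⟩ := (Nat.dvd_prime_pow Nat.prime_two).mp (Dvd.intro _ hfac)
    obtain ⟨j, -, hj⟩ := (Nat.dvd_prime_pow Nat.prime_two).mp (Dvd.intro_left _ hfac)
    have h1 : 1 ≤ 3 ^ d := Nat.one_le_pow _ _ (by norm_num)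
    have hij : 2 ^ j = 2 ^ i + 2 := by omega
    have hi1 : i = 1 := by
      rcases Nat.lt_or_ge i 2 with hlt | hge
      · interval_cases i
        · exfalso
          have : 2 ^ j = 3 := by simpa using hij
          rcases j with _ | j
          · simp at this
          · rw [pow_succ] at this; omega
        · rfl
      · exfalso
        have h4i : 4 ∣ 2 ^ i := by
          obtain ⟨e, rfl⟩ : ∃ e, i = 2 + e := ⟨i - 2, by omega⟩
          exact ⟨2 ^ e, by rw [pow_add]; norm_num⟩
        have hj2 : 2 ≤ j := by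
          by_contra hlt
          have : j = 0 ∨ j = 1 := by omega
          have h2i : 4 ≤ 2 ^ i := Nat.le_of_dvd (by positivity) h4i
          rcases this with rfl | rfl <;> simp at hij <;> omega
        have h4j : 4 ∣ 2 ^ j := by
          obtain ⟨e, rfl⟩ : ∃ e, j = 2 + e := ⟨j - 2, by omega⟩
          exact ⟨2 ^ e, by rw [pow_add]; norm_num⟩
        omega
    subst hi1
    have h3 : 3 ^ d = 3 := by omega
    rw [h3] at hfac
    have : 2 ^ a = 2 ^ 3 := by rw [← hfac]; norm_num
    exact Nat.pow_right_injective (le_refl 2) this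
  · exfalso
    subst hd
    have : 3 ^ (2 * d + 1) % 4 = 3 := by
      rw [pow_succ, pow_mul, Nat.mul_mod, Nat.pow_mod]
      norm_num
    omega

end AR4

theorem ar_two_c {a q r c : ℕ} (hq : q.Prime) (hr : r.Prime) (hu : 2 ^ a = q + 1) (hY : r ^ c = q + 2) :
    q = 3 ∨ q = 7 := by
  have hq2 := hq.two_le
  have hcases : q % 3 = 0 ∨ q % 3 = 1 ∨ q % 3 = 2 := by omega
  rcases hcases with h | h | h
  · left
    have : 3 ∣ q := Nat.dvd_of_mod_eq_zero h
    exact ((Nat.prime_dvd_prime_iff_eq Nat.prime_three hq).mp this).symm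
  · right
    have h3 : 3 ∣ r ^ c := by rw [hY]; omega
    have hr3 : r = 3 := ((Nat.prime_dvd_prime_iff_eq Nat.prime_three hr).mp
      (Nat.prime_three.dvd_of_dvd_pow h3)).symm
    subst hr3
    have ha : 2 ≤ a := by
      by_contra hlt
      have : a = 0 ∨ a = 1 := by omega
      rcases this with rfl | rfl <;> simp at hu <;> omega
    have := AR4.three_pow ha (by rw [hY, hu])
    subst this
    norm_num at hu
    omega
  · exfalso
    have h3 : 3 ∣ 2 ^ a := by rw [hu]; omega
    have := Nat.prime_three.dvd_of_dvd_pow h3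
    omega

end Cfsg.Agent.Lib.Helper59.FO
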