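import Cfsg.Agent.Lib.Helper59.FO.Base

/-!
S4068 farm (helper59), piece B1 (helper10): commuting elements have the same order; centralizers of
nonidentity elements are exactly the Sylow subgroups.
-/

set_option autoImplicit false
open Subgroup

namespace Cfsg.Agent.Lib.Helper59.FO

variable {G : Type*} [Group G] [Finite G]

theorem commute_order (c : Cfg G) {x y : G} (hx : x ≠ 1) (hy : y ≠ 1) (h : Commute x y) :
    orderOf x = orderOf y := by
  by_contra hne
  have hpx := c.prime_order x hx
  have hpy := c.prime_order y hy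
  have hco : Nat.Coprime (orderOf x) (orderOf y) := (Nat.coprime_primes hpx hpy).2 hne
  have hmul := h.orderOf_mul_eq_mul_orderOf_of_coprime hco
  have hxy : x * y ≠ 1 := by
    intro h1
    rw [h1, orderOf_one] at hmul
    have h2 := hpx.two_le
    have h3 := hpy.two_le
    nlinarith
  have hp := c.prime_order _ hxy
  rw [hmul] at hp
  exact Nat.not_prime_mul hpx.one_lt.ne' hpy.one_lt.ne' hp

namespace B1

theorem isPGroup_centralizer (c : Cfg G) {s : ℕ} (hs : s.Prime) (x : G) (hx : orderOf x = s) :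
    IsPGroup s (centralizer ({x} : Set G)) := by
  rintro ⟨y, hy⟩
  by_cases hy1 : y = 1
  · refine ⟨0, ?_⟩
    simpa using hy1
  · have hx1 : x ≠ 1 := by
      rintro rfl
      rw [orderOf_one] at hx
      exact hs.one_lt.ne hx
    have hc : Commute x y := (mem_centralizer_singleton_iff.1 hy).symm
    have h1 := commute_order c hx1 hy1 hc
    refine ⟨1, ?_⟩
    apply Subtype.ext
    simp only [pow_one, SubmonoidClass.mk_pow, OneMemClass.coe_one]
    rw [← hx, h1]
    exact pow_orderOf_eq_one y

theorem orderOf_eq_of_mem (c : Cfg G) {s : ℕ} [Fact s.Prime] {P : Subgroup G} (hP : IsPGroup s P)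
    {z : G} (hz : z ∈ P) (hz1 : z ≠ 1) : orderOf z = s := by
  obtain ⟨k, hk⟩ := (IsPGroup.iff_orderOf.1 hP) ⟨z, hz⟩
  rw [Subgroup.orderOf_mk] at hk
  have hp := c.prime_order z hz1
  have h1 : orderOf z ∣ s ^ k := by rw [hk]
  exact (Nat.prime_dvd_prime_iff_eq hp Fact.out).1 (hp.dvd_of_dvd_pow h1)

omit [Finite G] in
theorem card_centralizer_map (α : MulAut G) (z : G) :
    Nat.card (centralizer ({α z} : Set G)) = Nat.card (centralizer ({z} : Set G)) := by
  refine (Nat.card_congr (α.toEquiv.subtypeEquiv (fun y => ?_))).symm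
  rw [mem_centralizer_singleton_iff, mem_centralizer_singleton_iff]
  show _ ↔ α y * α z = α z * α y
  rw [← map_mul, ← map_mul, α.injective.eq_iff]

end B1

theorem sylow_eq_centralizer (c : Cfg G) {s : ℕ} [Fact s.Prime] (hs : s ∣ Nat.card G) (P : Sylow s G) :
    ∃ z : G, orderOf z = s ∧ (P : Subgroup G) = centralizer {z} := by
  have hPne : (P : Subgroup G) ≠ ⊥ := P.ne_bot_of_dvd_card hs
  have : Nontrivial (P : Subgroup G) := (Subgroup.nontrivial_iff_ne_bot _).2 hPne
  have := IsPGroup.center_nontrivial P.2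
  obtain ⟨z, hz⟩ := exists_ne (1 : Subgroup.center (P : Subgroup G))
  have hz1 : ((z : (P : Subgroup G)) : G) ≠ 1 := by
    intro h
    apply hz
    apply Subtype.ext
    apply Subtype.ext
    exact h
  have hzo : orderOf ((z : (P : Subgroup G)) : G) = s :=
    B1.orderOf_eq_of_mem c P.2 (z : (P : Subgroup G)).2 hz1
  refine ⟨((z : (P : Subgroup G)) : G), hzo, ?_⟩
  have hle : (P : Subgroup G) ≤ centralizer {((z : (P : Subgroup G)) : G)} := by
    intro y hy
    rw [mem_centralizer_singleton_iff]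
    have h1 := (Subgroup.mem_center_iff.1 z.2) ⟨y, hy⟩
    exact congrArg Subtype.val h1
  exact (P.is_maximal' (B1.isPGroup_centralizer c Fact.out _ hzo) hle).symm

theorem centralizer_eq_sylow (c : Cfg G) {s : ℕ} [Fact s.Prime] (x : G) (hx : orderOf x = s) :
    ∃ P : Sylow s G, (P : Subgroup G) = centralizer {x} := by
  have hs : s ∣ Nat.card G := hx ▸ orderOf_dvd_natCard x
  obtain ⟨Q, hQ⟩ := (B1.isPGroup_centralizer c Fact.out x hx).exists_le_sylow
  obtain ⟨z, hz, hQz⟩ := sylow_eq_centralizer c hs Q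
  obtain ⟨α, hα⟩ := c.trans z x (hz.trans hx.symm)
  refine ⟨Q, ?_⟩
  have hcard : Nat.card (Q : Subgroup G) ≤ Nat.card (centralizer ({x} : Set G)) := by
    rw [← hα, B1.card_centralizer_map, hQz]
  exact (Subgroup.eq_of_le_of_card_ge hQ hcard).symm

end Cfsg.Agent.Lib.Helper59.FO
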