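import Cfsg.Agent.Lib.Helper59.FO.Base

set_option autoImplicit false
open Subgroup

namespace Cfsg.Agent.Lib.Helper59.FO

variable {G : Type*} [Group G] [Finite G]

-- B2
theorem card_eq_sum (c : Cfg G) : Nat.card G = 1 + ∑ s ∈ (Nat.card G).primeFactors, nEl G s := by
  classical
  have : Fintype G := Fintype.ofFinite G
  have hmaps : ∀ x ∈ (Finset.univ.erase (1 : G)), orderOf x ∈ (Nat.card G).primeFactors := by
    intro x hx
    rw [Finset.mem_erase] at hx
    rw [Nat.mem_primeFactors]
    exact ⟨c.prime_order x hx.1, orderOf_dvd_natCard x, Nat.card_pos.ne'⟩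
  have h1 := Finset.card_eq_sum_card_fiberwise hmaps
  have h2 : (Finset.univ.erase (1 : G)).card + 1 = Nat.card G := by
    rw [Finset.card_erase_add_one (Finset.mem_univ _), Finset.card_univ, Nat.card_eq_fintype_card]
  have h3 : ∑ b ∈ (Nat.card G).primeFactors,
      ((Finset.univ.erase (1 : G)).filter (fun a => orderOf a = b)).card
      = ∑ s ∈ (Nat.card G).primeFactors, nEl G s := ?_
  · omega
  apply Finset.sum_congr rfl
  intro s hs
  have hsp := (Nat.mem_primeFactors.1 hs).1
  unfold nEl
  rw [Nat.card_eq_fintype_card, Fintype.card_subtype]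
  congr 1
  ext x
  simp only [Finset.mem_filter, Finset.mem_erase, Finset.mem_univ, and_true, true_and]
  constructor
  · exact fun h => h.2
  · intro h
    refine ⟨?_, h⟩
    rintro rfl
    rw [orderOf_one] at h
    exact hsp.one_lt.ne h

-- B2
theorem card_sylow (s : ℕ) [Fact s.Prime] (P : Sylow s G) : Nat.card (P : Subgroup G) = sy G s :=
  Sylow.card_eq_multiplicity P

end Cfsg.Agent.Lib.Helper59.FO
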