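import Cfsg.Agent.Lib.Helper59.FO.B1

/-!
S4068 farm (helper59), piece B3 (helper10): the number of elements of order `s`.
-/

set_option autoImplicit false
open Subgroup
open scoped Pointwise

namespace Cfsg.Agent.Lib.Helper59.FO

variable {G : Type*} [Group G] [Finite G]

namespace B3

omit [Finite G] in
theorem card_ne_one (H : Subgroup G) : Nat.card {x : G // x ∈ H ∧ x ≠ 1} = Nat.card H - 1 := by
  have h1 : {x : G | x ∈ H ∧ x ≠ 1} = (H : Set G) \ {1} := by
    ext x
    simp
  have h2 : Nat.card {x : G // x ∈ H ∧ x ≠ 1} = ({x : G | x ∈ H ∧ x ≠ 1}).ncard :=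
    Nat.card_coe_set_eq _
  rw [h2, h1, Set.ncard_sdiff_singleton_of_mem H.one_mem]
  rfl

omit [Finite G] in
theorem card_center_smul (g : G) (H : Subgroup G) :
    Nat.card ((MulAut.conj g • H) ⊓ centralizer ((MulAut.conj g • H : Subgroup G) : Set G) : Subgroup G)
      = Nat.card (H ⊓ centralizer (H : Set G) : Subgroup G) := by
  refine (Nat.card_congr ((MulAut.conj g).toEquiv.subtypeEquiv (fun y => ?_))).symm
  show y ∈ H ⊓ centralizer (H : Set G) ↔
    MulAut.conj g • y ∈ (MulAut.conj g • H) ⊓ centralizer ((MulAut.conj g • H : Subgroup G) : Set G)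
  rw [Subgroup.mem_inf, Subgroup.mem_inf, Subgroup.smul_mem_pointwise_smul_iff]
  refine and_congr_right (fun _ => ?_)
  rw [mem_centralizer_iff, mem_centralizer_iff]
  constructor
  · intro h k hk
    obtain ⟨k', hk', rfl⟩ := Subgroup.mem_smul_pointwise_iff_exists _ _ _ |>.1 hk
    rw [← smul_mul', ← smul_mul', h k' hk']
  · intro h k hk
    have h1 := h (MulAut.conj g • k) (Subgroup.smul_mem_pointwise_smul _ _ _ hk)
    rw [← smul_mul', ← smul_mul'] at h1
    exact smul_left_cancel _ h1

end B3

theorem nEl_eq (c : Cfg G) {s : ℕ} [Fact s.Prime] (hs : s ∣ Nat.card G) (P : Sylow s G) :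
    nEl G s = (normalizer ((P : Subgroup G) : Set G)).index *
      (Nat.card ((P : Subgroup G) ⊓ centralizer ((P : Subgroup G) : Set G) : Subgroup G) - 1) := by
  classical
  have := Fintype.ofFinite (Sylow s G)
  have hs1 : s ≠ 1 := (Fact.out : s.Prime).one_lt.ne'
  let φ : {x : G // orderOf x = s} → Sylow s G := fun x => (centralizer_eq_sylow c x.1 x.2).choose
  have hφ : ∀ x : {x : G // orderOf x = s}, ((φ x : Sylow s G) : Subgroup G) = centralizer {x.1} :=
    fun x => (centralizer_eq_sylow c x.1 x.2).choose_spec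
  have hfib : ∀ Q : Sylow s G, Nat.card {x : {x : G // orderOf x = s} // φ x = Q}
      = Nat.card ((P : Subgroup G) ⊓ centralizer ((P : Subgroup G) : Set G) : Subgroup G) - 1 := by
    intro Q
    have h1 : Nat.card {x : {x : G // orderOf x = s} // φ x = Q}
        = Nat.card {x : G // x ∈ ((Q : Subgroup G) ⊓ centralizer ((Q : Subgroup G) : Set G)) ∧ x ≠ 1} := by
      refine Nat.card_congr
        { toFun := fun x => ⟨x.1.1, ?_⟩
          invFun := fun y => ⟨⟨y.1, ?_⟩, ?_⟩
          left_inv := fun x => rfl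
          right_inv := fun y => rfl }
      · have h2 : (Q : Subgroup G) = centralizer {x.1.1} := (congrArg (fun R : Sylow s G => (R : Subgroup G)) x.2).symm.trans (hφ x.1)
        refine ⟨Subgroup.mem_inf.2 ⟨?_, ?_⟩, ?_⟩
        · rw [h2, mem_centralizer_singleton_iff]
        · rw [mem_centralizer_iff]
          intro k hk
          rw [SetLike.mem_coe, h2, mem_centralizer_singleton_iff] at hk
          exact hk
        · intro h3
          have h4 := x.1.2
          rw [h3, orderOf_one] at h4
          exact hs1 h4.symm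
      · exact B1.orderOf_eq_of_mem c Q.2 (Subgroup.mem_inf.1 y.2.1).1 y.2.2
      · have h2 : (Q : Subgroup G) ≤ (φ ⟨y.1, B1.orderOf_eq_of_mem c Q.2 (Subgroup.mem_inf.1 y.2.1).1 y.2.2⟩ : Sylow s G) := by
          rw [hφ]
          intro k hk
          rw [mem_centralizer_singleton_iff]
          exact (mem_centralizer_iff.1 (Subgroup.mem_inf.1 y.2.1).2) k hk
        exact Sylow.ext (Q.is_maximal' (φ _).2 h2)
    rw [h1, B3.card_ne_one]
    obtain ⟨g, rfl⟩ := MulAction.exists_smul_eq G P Q
    rw [Sylow.coe_subgroup_smul, B3.card_center_smul]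
  have hsum : nEl G s = ∑ Q : Sylow s G, Nat.card {x : {x : G // orderOf x = s} // φ x = Q} := by
    rw [← Nat.card_sigma]
    exact (Nat.card_congr (Equiv.sigmaFiberEquiv φ)).symm
  rw [hsum, Finset.sum_congr rfl (fun Q _ => hfib Q), Finset.sum_const, Finset.card_univ,
    ← Nat.card_eq_fintype_card, Sylow.card_eq_index_normalizer P, smul_eq_mul]
  rfl

end Cfsg.Agent.Lib.Helper59.FO
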