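import Cfsg.Agent.Lib.Helper59.FO.Base

/-!
S4068 farm (helper59), piece B4 (helper10): an abelian Sylow subgroup is not self-normalizing (Burnside).
-/

set_option autoImplicit false
open Subgroup

namespace Cfsg.Agent.Lib.Helper59.FO

variable {G : Type*} [Group G] [Finite G]

theorem normalizer_ne (c : Cfg G) {s : ℕ} [Fact s.Prime] (hs : s ∣ Nat.card G) (P : Sylow s G)
    (hP : ∀ x ∈ (P : Subgroup G), ∀ y ∈ (P : Subgroup G), x * y = y * x) :
    normalizer ((P : Subgroup G) : Set G) ≠ (P : Subgroup G) := by
  intro hN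
  have hle : normalizer ((P : Subgroup G) : Set G) ≤ centralizer ((P : Subgroup G) : Set G) := by
    rw [hN]
    intro x hx
    rw [mem_centralizer_iff]
    intro y hy
    exact hP y hy x hx
  have hcomp := MonoidHom.ker_transferSylow_isComplement' P hle
  have hcard := hcomp.card_mul_card
  have hsimple := c.simple
  have hpos : 0 < Nat.card G := Nat.card_pos
  rcases (MonoidHom.normal_ker (MonoidHom.transferSylow P hle)).eq_bot_or_eq_top with h | h
  · rw [h, Subgroup.card_bot, one_mul] at hcard
    obtain ⟨k, hk⟩ := IsPGroup.iff_card.1 P.2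
    have h3 := c.three
    rw [← hcard, hk] at h3
    have h4 : (s ^ k).primeFactors ⊆ {s} := by
      intro r hr
      have h5 := Nat.mem_primeFactors.1 hr
      rw [Finset.mem_singleton]
      exact (Nat.prime_dvd_prime_iff_eq h5.1 Fact.out).1 (h5.1.dvd_of_dvd_pow h5.2.1)
    have h6 := Finset.card_le_card h4
    rw [h3] at h6
    simp at h6
  · rw [h, Subgroup.card_top] at hcard
    have h1 : Nat.card (P : Subgroup G) = 1 := by
      have : Nat.card G * Nat.card (P : Subgroup G) = Nat.card G * 1 := by rw [hcard, mul_one]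
      exact Nat.eq_of_mul_eq_mul_left hpos this
    exact P.ne_bot_of_dvd_card hs ((Subgroup.card_eq_one).1 h1)

end Cfsg.Agent.Lib.Helper59.FO
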