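import Cfsg.Agent.Lib.Helper59.FO.B3
import Cfsg.Agent.Lib.Helper59.FO.B4

/-!
S4068 farm (helper59), piece B5 (helper10): bound for the number of elements of order `s` when the Sylow
normalizer has odd order.
-/

set_option autoImplicit false
open Subgroup

namespace Cfsg.Agent.Lib.Helper59.FO

variable {G : Type*} [Group G] [Finite G]

namespace B5

theorem two_mul_card_le {H K : Subgroup G} (h : H < K) : 2 * Nat.card H ≤ Nat.card K := by
  obtain ⟨m, hm⟩ := Subgroup.card_dvd_of_le h.le
  have hpos : 0 < Nat.card K := Nat.card_pos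
  have hposH : 0 < Nat.card H := Nat.card_pos
  have hne : Nat.card H ≠ Nat.card K := fun he => h.ne (Subgroup.eq_of_le_of_card_ge h.le he.ge)
  rcases m with _ | _ | m
  · simp at hm
    omega
  · simp at hm
    omega
  · rw [hm]
    nlinarith

/-- the centre of a nonabelian subgroup has index at least four. -/
theorem four_mul_card_le (P : Subgroup G) (h : ¬ ∀ x ∈ P, ∀ y ∈ P, x * y = y * x) :
    4 * Nat.card (P ⊓ centralizer (P : Set G) : Subgroup G) ≤ Nat.card P := by
  push Not at h
  obtain ⟨x, hx, y, hy, hxy⟩ := h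
  have h1 : (P ⊓ centralizer (P : Set G) : Subgroup G) < P ⊓ centralizer {x} := by
    refine lt_of_le_of_ne ?_ ?_
    · intro w hw
      refine Subgroup.mem_inf.2 ⟨(Subgroup.mem_inf.1 hw).1, ?_⟩
      rw [mem_centralizer_singleton_iff]
      exact ((mem_centralizer_iff.1 (Subgroup.mem_inf.1 hw).2) x hx).symm
    · intro he
      have h2 : x ∈ P ⊓ centralizer {x} :=
        Subgroup.mem_inf.2 ⟨hx, by rw [mem_centralizer_singleton_iff]⟩
      rw [← he] at h2
      exact hxy ((mem_centralizer_iff.1 (Subgroup.mem_inf.1 h2).2) y hy).symm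
  have h2 : (P ⊓ centralizer {x} : Subgroup G) < P := by
    refine lt_of_le_of_ne inf_le_left ?_
    intro he
    rw [← he] at hy
    exact hxy (mem_centralizer_singleton_iff.1 (Subgroup.mem_inf.1 hy).2).symm
  have h3 := two_mul_card_le h1
  have h4 := two_mul_card_le h2
  omega

end B5

theorem bound_of_odd (c : Cfg G) {s : ℕ} [Fact s.Prime] (hs : s ∣ Nat.card G) (P : Sylow s G)
    (hodd : ¬ 2 ∣ Nat.card (normalizer ((P : Subgroup G) : Set G))) :
    3 * nEl G s + (P : Subgroup G).index ≤ Nat.card G := by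
  rw [nEl_eq c hs P]
  have hPN : (P : Subgroup G) ≤ normalizer ((P : Subgroup G) : Set G) := Subgroup.le_normalizer
  obtain ⟨k, hk⟩ := Subgroup.card_dvd_of_le hPN
  have hN := Subgroup.card_mul_index (normalizer ((P : Subgroup G) : Set G))
  have hPi := Subgroup.card_mul_index (P : Subgroup G)
  have hSpos : 0 < Nat.card (P : Subgroup G) := Nat.card_pos
  have hNpos : 0 < Nat.card (normalizer ((P : Subgroup G) : Set G)) := Nat.card_pos
  have hzpos : 0 < Nat.card ((P : Subgroup G) ⊓ centralizer ((P : Subgroup G) : Set G) : Subgroup G) :=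
    Nat.card_pos
  set i := (normalizer ((P : Subgroup G) : Set G)).index with hi
  set S := Nat.card (P : Subgroup G) with hS
  set z := Nat.card ((P : Subgroup G) ⊓ centralizer ((P : Subgroup G) : Set G) : Subgroup G) with hz
  have hidx : (P : Subgroup G).index = k * i := by
    have h1 : S * (P : Subgroup G).index = S * (k * i) := by
      rw [hPi, ← hN, hk]
      ring
    exact Nat.eq_of_mul_eq_mul_left hSpos h1
  have hg : Nat.card G = S * k * i := by rw [← hN, hk]
  have hk0 : k ≠ 0 := by
    rintro rfl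
    rw [hk] at hNpos
    simp at hNpos
  have hk2 : ¬ 2 ∣ k := fun h => hodd (hk ▸ Dvd.dvd.mul_left h _)
  rw [hidx, hg]
  by_cases hab : ∀ x ∈ (P : Subgroup G), ∀ y ∈ (P : Subgroup G), x * y = y * x
  · have hzS : z = S := by
      have h1 : ((P : Subgroup G) ⊓ centralizer ((P : Subgroup G) : Set G) : Subgroup G) = P := by
        refine inf_eq_left.2 ?_
        intro x hx
        rw [mem_centralizer_iff]
        intro y hy
        exact hab y hy x hx
      rw [hz, h1]
    have hk1 : k ≠ 1 := by
      rintro rfl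
      rw [mul_one] at hk
      exact normalizer_ne c hs P hab (Subgroup.eq_of_le_of_card_ge hPN hk.le).symm
    have hk3 : 3 ≤ k := by
      rcases k with _ | _ | _ | k
      · exact absurd rfl hk0
      · exact absurd rfl hk1
      · exact absurd (dvd_refl 2) hk2
      · omega
    rw [hzS]
    obtain ⟨S', hS'⟩ : ∃ S', S = S' + 1 := ⟨S - 1, by omega⟩
    obtain ⟨k', hk'⟩ : ∃ k', k = k' + 3 := ⟨k - 3, by omega⟩
    rw [hS', hk', Nat.add_sub_cancel]
    have h1 : (S' + 1) * (k' + 3) * i = 3 * (i * S') + (k' + 3) * i + i * S' * k' := by ring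
    rw [h1]
    exact Nat.le_add_right _ _
  · have h4 : 4 * z ≤ S := B5.four_mul_card_le (P : Subgroup G) hab
    obtain ⟨z', hz'⟩ : ∃ z', z = z' + 1 := ⟨z - 1, by omega⟩
    obtain ⟨k', hk'⟩ : ∃ k', k = k' + 1 := ⟨k - 1, by omega⟩
    rw [hz'] at h4
    rw [hz', hk', Nat.add_sub_cancel]
    calc 3 * (i * z') + (k' + 1) * i ≤ (4 * (z' + 1)) * (k' + 1) * i := by nlinarith [Nat.zero_le (i * z'), Nat.zero_le (i * k'), Nat.zero_le (i * z' * k')]
      _ ≤ S * (k' + 1) * i := by gcongr

end Cfsg.Agent.Lib.Helper59.FO
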