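import Mathlib

/-!
S4068 (a nonsolvable group with four automorphism orbits is `A5`): shared definitions (helper59).
-/

set_option autoImplicit false
open Subgroup

namespace Cfsg.Agent.Lib.Helper59.FO

/-- the reduced configuration: `G` simple, every nonidentity element has prime order, elements of the same
order are conjugate under `Aut G`, exactly three primes divide `|G|`. -/
structure Cfg (G : Type*) [Group G] [Finite G] : Prop where
  simple : IsSimpleGroup G
  prime_order : ∀ x : G, x ≠ 1 → (orderOf x).Prime
  trans : ∀ x y : G, orderOf x = orderOf y → ∃ α : MulAut G, α x = y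
  three : (Nat.card G).primeFactors.card = 3

/-- number of elements of order `s`. -/
noncomputable def nEl (G : Type*) [Group G] (s : ℕ) : ℕ := Nat.card {x : G // orderOf x = s}

/-- order of a Sylow `s`-subgroup. -/
noncomputable def sy (G : Type*) [Group G] (s : ℕ) : ℕ := s ^ (Nat.card G).factorization s

/-- some element of order `s` is inverted by an involution. -/
def IsReal (G : Type*) [Group G] (s : ℕ) : Prop :=
  ∃ t x : G, orderOf t = 2 ∧ orderOf x = s ∧ t * x * t⁻¹ = x⁻¹

/-- number of pairs (involution `t`, element `y` of order `s` inverted by `t`). -/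
noncomputable def RR (G : Type*) [Group G] (s : ℕ) : ℕ :=
  Nat.card {p : G × G // orderOf p.1 = 2 ∧ orderOf p.2 = s ∧ p.1 * p.2 * p.1⁻¹ = p.2⁻¹}

end Cfsg.Agent.Lib.Helper59.FO
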