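import Cfsg.Agent.Lib.Helper59.FO.B1
import Cfsg.Agent.Lib.Helper59.FO.B2

set_option autoImplicit false
open Subgroup

namespace Cfsg.Agent.Lib.Helper59.FO

variable {G : Type*} [Group G] [Finite G]

-- IC1
theorem invol_count_one (c : Cfg G) (t : G) (ht : orderOf t = 2) :
    nEl G 2 = (sy G 2 - 1) + ∑ s ∈ (Nat.card G).primeFactors.erase 2,
      Nat.card {y : G // orderOf y = s ∧ t * y * t⁻¹ = y⁻¹} := by
  classical
  have : Fintype G := Fintype.ofFinite G
  have : Fact (Nat.Prime 2) := ⟨Nat.prime_two⟩
  have htt : t * t = 1 := by rw [← sq, ← ht]; exact pow_orderOf_eq_one t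
  have hti : t⁻¹ = t := inv_eq_of_mul_eq_one_left htt
  have ht1 : t ≠ 1 := by
    rintro rfl
    simp at ht
  have h2G : 2 ∣ Nat.card G := ht ▸ orderOf_dvd_natCard t
  have h2mem : 2 ∈ (Nat.card G).primeFactors :=
    Nat.mem_primeFactors.2 ⟨Nat.prime_two, h2G, Nat.card_pos.ne'⟩
  have h1mem : 1 ∉ (Nat.card G).primeFactors := by
    intro h
    exact Nat.not_prime_one (Nat.mem_primeFactors.1 h).1
  have hnEl : nEl G 2 = (Finset.univ.filter (fun y : G => orderOf (t * y) = 2)).card := by
    unfold nEl
    rw [← Nat.card_congr ((Equiv.mulLeft t).subtypeEquiv (p := fun y => orderOf (t * y) = 2)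
      (q := fun x => orderOf x = 2) (fun y => Iff.rfl)), Nat.card_eq_fintype_card,
      Fintype.card_subtype]
  have hmaps : ∀ y ∈ (Finset.univ.filter (fun y : G => orderOf (t * y) = 2)),
      orderOf y ∈ insert 1 (Nat.card G).primeFactors := by
    intro y _
    by_cases hy : y = 1
    · rw [hy, orderOf_one]; exact Finset.mem_insert_self _ _
    · exact Finset.mem_insert_of_mem (Nat.mem_primeFactors.2
        ⟨c.prime_order y hy, orderOf_dvd_natCard y, Nat.card_pos.ne'⟩)
  rw [hnEl, Finset.card_eq_sum_card_fiberwise hmaps, Finset.sum_insert h1mem,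
    ← Finset.add_sum_erase _ _ h2mem]
  -- the fibre over `1`
  have hf1 : ((Finset.univ.filter (fun y : G => orderOf (t * y) = 2)).filter
      (fun y => orderOf y = 1)).card = 1 := by
    rw [Finset.card_eq_one]
    refine ⟨1, ?_⟩
    ext y
    simp only [Finset.mem_filter, Finset.mem_univ, true_and, Finset.mem_singleton,
      orderOf_eq_one_iff]
    constructor
    · exact fun h => h.2
    · rintro rfl
      exact ⟨by rw [mul_one]; exact ht, rfl⟩
  -- the fibre over `2`
  obtain ⟨P, hP⟩ := centralizer_eq_sylow c t ht
  have hCcard : (Finset.univ.filter (fun y : G => y ∈ centralizer ({t} : Set G))).card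
      = sy G 2 := by
    rw [← card_sylow 2 P, hP, Nat.card_eq_fintype_card, Fintype.card_subtype]
  have hf2 : ((Finset.univ.filter (fun y : G => orderOf (t * y) = 2)).filter
      (fun y => orderOf y = 2)) =
      ((Finset.univ.filter (fun y : G => y ∈ centralizer ({t} : Set G))).erase 1).erase t := by
    ext y
    simp only [Finset.mem_filter, Finset.mem_univ, true_and, Finset.mem_erase,
      mem_centralizer_singleton_iff]
    constructor
    · rintro ⟨h1, h2⟩
      have hyy : y * y = 1 := by rw [← sq, ← h2]; exact pow_orderOf_eq_one y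
      have htyty : (t * y) * (t * y) = 1 := by rw [← sq, ← h1]; exact pow_orderOf_eq_one _
      refine ⟨?_, ?_, ?_⟩
      · rintro rfl
        rw [htt, orderOf_one] at h1
        norm_num at h1
      · rintro rfl
        rw [orderOf_one] at h2
        norm_num at h2
      · calc y * t = (t * t) * (y * t) * (y * y) := by rw [htt, hyy, one_mul, mul_one]
          _ = t * ((t * y) * (t * y)) * y := by group
          _ = t * y := by rw [htyty, mul_one]
    · rintro ⟨hyt, hy1, hc⟩
      have hcom : Commute y t := hc
      have hy2 : orderOf y = 2 := (commute_order c hy1 ht1 hcom).trans ht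
      refine ⟨?_, hy2⟩
      have hty1 : t * y ≠ 1 := by
        intro h
        apply hyt
        rw [← hti]
        exact (inv_eq_of_mul_eq_one_right h).symm
      have hcom2 : Commute (t * y) t := (Commute.refl t).mul_left hcom
      exact (commute_order c hty1 ht1 hcom2).trans ht
  have hmem1 : (1 : G) ∈ Finset.univ.filter (fun y : G => y ∈ centralizer ({t} : Set G)) := by
    simp
  have hmemt : t ∈ (Finset.univ.filter (fun y : G => y ∈ centralizer ({t} : Set G))).erase 1 := by
    simp [ht1, mem_centralizer_singleton_iff]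
  have hf2c : ((Finset.univ.filter (fun y : G => orderOf (t * y) = 2)).filter
      (fun y => orderOf y = 2)).card = sy G 2 - 2 := by
    rw [hf2, Finset.card_erase_of_mem hmemt, Finset.card_erase_of_mem hmem1, hCcard]
    omega
  have hsy2 : 2 ≤ sy G 2 := by
    rw [← hCcard]
    have h := Finset.card_pos.2 ⟨t, hmemt⟩
    rw [Finset.card_erase_of_mem hmem1] at h
    omega
  -- the other fibres
  have hfs : ∀ s ∈ (Nat.card G).primeFactors.erase 2,
      ((Finset.univ.filter (fun y : G => orderOf (t * y) = 2)).filter
      (fun y => orderOf y = s)).card =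
      Nat.card {y : G // orderOf y = s ∧ t * y * t⁻¹ = y⁻¹} := by
    intro s hs
    rw [Finset.mem_erase] at hs
    rw [Nat.card_eq_fintype_card, Fintype.card_subtype]
    congr 1
    ext y
    simp only [Finset.mem_filter, Finset.mem_univ, true_and]
    constructor
    · rintro ⟨h1, h2⟩
      refine ⟨h2, ?_⟩
      have htyty : (t * y) * (t * y) = 1 := by rw [← sq, ← h1]; exact pow_orderOf_eq_one _
      rw [hti, eq_inv_iff_mul_eq_one]
      rw [← htyty]
      group
    · rintro ⟨h2, h3⟩
      refine ⟨?_, h2⟩
      apply orderOf_eq_prime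
      · rw [hti, eq_inv_iff_mul_eq_one] at h3
        rw [sq, ← h3]
        group
      · intro h
        apply hs.1
        have hyt : y = t := by
          rw [← hti]
          exact (inv_eq_of_mul_eq_one_right h).symm
        rw [← h2, hyt, ht]
  rw [hf1, hf2c, Finset.sum_congr rfl hfs]
  omega

end Cfsg.Agent.Lib.Helper59.FO
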