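import Cfsg.Agent.Lib.Helper59.FO.IC1

set_option autoImplicit false
open Subgroup

namespace Cfsg.Agent.Lib.Helper59.FO

variable {G : Type*} [Group G] [Finite G]

namespace IC2

theorem RR_eq_sum [Fintype {t : G // orderOf t = 2}] (s : ℕ) :
    RR G s = ∑ t : {t : G // orderOf t = 2},
      Nat.card {y : G // orderOf y = s ∧ t.1 * y * t.1⁻¹ = y⁻¹} := by
  rw [← Nat.card_sigma]
  unfold RR
  apply Nat.card_congr
  exact
    { toFun := fun p => ⟨⟨p.1.1, p.2.1⟩, ⟨p.1.2, p.2.2⟩⟩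
      invFun := fun q => ⟨(q.1.1, q.2.1), q.1.2, q.2.2⟩
      left_inv := fun p => rfl
      right_inv := fun q => rfl }

end IC2

-- IC2
theorem invol_count (c : Cfg G) :
    nEl G 2 * nEl G 2 = nEl G 2 * (sy G 2 - 1) + ∑ s ∈ (Nat.card G).primeFactors.erase 2, RR G s := by
  classical
  have : Fintype {t : G // orderOf t = 2} := Fintype.ofFinite _
  have hn : nEl G 2 = Fintype.card {t : G // orderOf t = 2} := Nat.card_eq_fintype_card
  have h1 : ∑ _t : {t : G // orderOf t = 2}, nEl G 2 = nEl G 2 * nEl G 2 := by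
    rw [Finset.sum_const, Finset.card_univ, ← hn, smul_eq_mul]
  have h2 : ∑ t : {t : G // orderOf t = 2}, nEl G 2 =
      ∑ t : {t : G // orderOf t = 2}, ((sy G 2 - 1) + ∑ s ∈ (Nat.card G).primeFactors.erase 2,
      Nat.card {y : G // orderOf y = s ∧ t.1 * y * t.1⁻¹ = y⁻¹}) :=
    Finset.sum_congr rfl (fun t _ => invol_count_one c t.1 t.2)
  rw [← h1, h2, Finset.sum_add_distrib, Finset.sum_const, Finset.card_univ, ← hn, smul_eq_mul,
    Finset.sum_comm]
  congr 1
  exact Finset.sum_congr rfl (fun s _ => (IC2.RR_eq_sum s).symm)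

end Cfsg.Agent.Lib.Helper59.FO
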