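import Cfsg.Agent.Lib.Helper59.FO.R4

set_option autoImplicit false
open Subgroup

namespace Cfsg.Agent.Lib.Helper59.FO

variable {G : Type*} [Group G] [Finite G]

namespace IC3

theorem RR_eq_sum (s : ℕ) [Fintype {y : G // orderOf y = s}] :
    RR G s = ∑ y : {y : G // orderOf y = s},
      Nat.card {t : G // orderOf t = 2 ∧ t * y.1 * t⁻¹ = y.1⁻¹} := by
  rw [← Nat.card_sigma]
  unfold RR
  apply Nat.card_congr
  exact
    { toFun := fun p => ⟨⟨p.1.2, p.2.2.1⟩, ⟨p.1.1, p.2.1, p.2.2.2⟩⟩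
      invFun := fun q => ⟨(q.2.1, q.1.1), q.2.2.1, q.1.2, q.2.2.2⟩
      left_inv := fun p => rfl
      right_inv := fun q => rfl }

end IC3

-- IC3
theorem RR_real (c : Cfg G) {s : ℕ} [Fact s.Prime] (hs2 : s ≠ 2) (h : IsReal G s) :
    RR G s = nEl G s * sy G s := by
  classical
  have : Fintype {y : G // orderOf y = s} := Fintype.ofFinite _
  have hn : nEl G s = Fintype.card {y : G // orderOf y = s} := Nat.card_eq_fintype_card
  rw [IC3.RR_eq_sum s, Finset.sum_congr rfl (fun y _ => real_count c hs2 h y.1 y.2),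
    Finset.sum_const, Finset.card_univ, ← hn, smul_eq_mul]

-- IC3
theorem RR_not_real {s : ℕ} (h : ¬ IsReal G s) : RR G s = 0 := by
  unfold RR
  have : IsEmpty {p : G × G // orderOf p.1 = 2 ∧ orderOf p.2 = s ∧ p.1 * p.2 * p.1⁻¹ = p.2⁻¹} :=
    ⟨fun p => h ⟨p.1.1, p.1.2, p.2.1, p.2.2.1, p.2.2.2⟩⟩
  exact Nat.card_of_isEmpty

end Cfsg.Agent.Lib.Helper59.FO
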