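import Cfsg.Agent.Lib.Helper59.FO.Base

set_option autoImplicit false
open Subgroup

namespace Cfsg.Agent.Lib.Helper59.FO

variable {G : Type*} [Group G] [Finite G]

namespace K1

theorem sq_eq_one (c : Cfg G) (T : Sylow 2 G) : ∀ x ∈ (T : Subgroup G), x * x = 1 := by
  intro x hx
  by_cases hx1 : x = 1
  · rw [hx1, mul_one]
  · have hp := c.prime_order x hx1
    obtain ⟨k, hk⟩ := T.isPGroup' ⟨x, hx⟩
    have hk' : x ^ 2 ^ k = 1 := congrArg Subtype.val hk
    have hd := orderOf_dvd_of_pow_eq_one hk'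
    have h2 : orderOf x = 2 :=
      (Nat.prime_dvd_prime_iff_eq hp Nat.prime_two).1 (hp.dvd_of_dvd_pow hd)
    rw [← sq, ← h2]
    exact pow_orderOf_eq_one x

end K1

-- K1
theorem sylow_two_comm (c : Cfg G) (T : Sylow 2 G) :
    ∀ x ∈ (T : Subgroup G), ∀ y ∈ (T : Subgroup G), x * y = y * x := by
  intro a ha b hb
  have ha2 := K1.sq_eq_one c T a ha
  have hb2 := K1.sq_eq_one c T b hb
  have hab := K1.sq_eq_one c T (a * b) (mul_mem ha hb)
  calc a * b = a * ((a * b) * (a * b)) * b := by rw [hab, mul_one]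
    _ = (a * a) * (b * a) * (b * b) := by group
    _ = b * a := by rw [ha2, hb2, one_mul, mul_one]

end Cfsg.Agent.Lib.Helper59.FO
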