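import Cfsg.Agent.Lib.Helper59.FO.B1
import Cfsg.Agent.Lib.Helper59.FO.B4
import Cfsg.Agent.Lib.Helper59.FO.K1
import Cfsg.Agent.S0041

set_option autoImplicit false
open Subgroup

namespace Cfsg.Agent.Lib.Helper59.FO

variable {G : Type*} [Group G] [Finite G]

namespace K2

/-- a complement `K` of `T` in `N(T)` -/
theorem exists_compl (T : Sylow 2 G) :
    ∃ (K : Subgroup G) (k : ℕ), K ≤ normalizer ((T : Subgroup G) : Set G) ∧ Nat.card K = k ∧
      ¬ 2 ∣ k ∧ Nat.card (normalizer ((T : Subgroup G) : Set G)) = k * Nat.card (T : Subgroup G) := by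
  have : Fact (Nat.Prime 2) := ⟨Nat.prime_two⟩
  have hTN : (T : Subgroup G) ≤ normalizer ((T : Subgroup G) : Set G) := le_normalizer
  have hcT : Nat.card ((T : Subgroup G).subgroupOf (normalizer ((T : Subgroup G) : Set G)))
      = Nat.card (T : Subgroup G) := Nat.card_congr (subgroupOfEquivOfLe hTN).toEquiv
  have hodd : ¬ 2 ∣ ((T : Subgroup G).subgroupOf (normalizer ((T : Subgroup G) : Set G))).index := by
    intro h
    apply T.not_dvd_index
    rw [← relIndex_mul_index hTN]
    exact Dvd.dvd.mul_right h _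
  obtain ⟨a, ha⟩ := IsPGroup.iff_card.mp T.isPGroup'
  have hcop : Nat.Coprime
      (Nat.card ((T : Subgroup G).subgroupOf (normalizer ((T : Subgroup G) : Set G))))
      ((T : Subgroup G).subgroupOf (normalizer ((T : Subgroup G) : Set G))).index := by
    rw [hcT, ha]
    exact ((Nat.Prime.coprime_iff_not_dvd Nat.prime_two).2 hodd).pow_left a
  obtain ⟨K', hK'⟩ := exists_left_complement'_of_coprime hcop
  have h1 := hK'.card_mul_card
  have h2 := card_mul_index ((T : Subgroup G).subgroupOf (normalizer ((T : Subgroup G) : Set G)))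
  have hK'c : Nat.card K' =
      ((T : Subgroup G).subgroupOf (normalizer ((T : Subgroup G) : Set G))).index := by
    rw [← h1, mul_comm] at h2
    exact (Nat.eq_of_mul_eq_mul_right Nat.card_pos h2).symm
  refine ⟨K'.map (normalizer ((T : Subgroup G) : Set G)).subtype, _, map_subtype_le _,
    (card_map_of_injective (subtype_injective _)).trans hK'c, hodd, ?_⟩
  rw [← h2, hcT, mul_comm]

end K2

-- K2
theorem k_two (c : Cfg G) (h2 : 2 ∣ Nat.card G) (T : Sylow 2 G) :
    ∃ k : ℕ, k.Prime ∧ k ≠ 2 ∧ Nat.card (normalizer ((T : Subgroup G) : Set G)) = k * Nat.card (T : Subgroup G) ∧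
      k ∣ Nat.card (T : Subgroup G) - 1 := by
  classical
  have : Fact (Nat.Prime 2) := ⟨Nat.prime_two⟩
  obtain ⟨K, k, hKN, hKc, hkodd, hNc⟩ := K2.exists_compl T
  have hcomm := sylow_two_comm c T
  have hk1 : k ≠ 1 := by
    rintro rfl
    rw [one_mul] at hNc
    exact normalizer_ne c h2 T hcomm (eq_of_le_of_card_ge le_normalizer hNc.le).symm
  have hT1 : (T : Subgroup G) ≠ ⊥ := by
    intro h
    have h3 : 2 ^ 1 ∣ Nat.card (T : Subgroup G) :=
      T.pow_dvd_card_of_pow_dvd_card (by simpa using h2)
    rw [h, card_bot] at h3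
    norm_num at h3
  have hfpf : ∀ a ∈ K, a ≠ 1 → (T : Subgroup G) ⊓ centralizer {a} = ⊥ := by
    intro a haK ha1
    rw [eq_bot_iff]
    rintro w ⟨hwT, hwa⟩
    rw [mem_bot]
    by_contra hw1
    have hc : Commute w a := mem_centralizer_singleton_iff.1 hwa
    have ho := commute_order c hw1 ha1 hc
    have hw2 : orderOf w = 2 := by
      apply orderOf_eq_prime _ hw1
      rw [sq]
      exact K1.sq_eq_one c T w hwT
    apply hkodd
    rw [← hKc, ← hw2, ho]
    have := orderOf_dvd_natCard (⟨a, haK⟩ : K)
    rwa [Subgroup.orderOf_mk] at this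
  have hmc : IsMulCommutative (T : Subgroup G) :=
    ⟨⟨fun a b => Subtype.ext (hcomm a a.2 b b.2)⟩⟩
  have hno : ∀ A : Subgroup G, A ≤ K → ∀ p q : ℕ, p.Prime → q.Prime → Nat.card A ≠ p * q := by
    intro A hAK p q hp hq hA
    have hcyc := Cfsg.Agent.S0041.result A (T : Subgroup G) hT1 (hAK.trans hKN)
      (fun a ha => hfpf a (hAK ha)) (Or.inr ⟨p, q, hp, hq, hA⟩)
    obtain ⟨g, hg⟩ := hcyc.exists_ofOrder_eq_natCard
    rw [hA, ← Subgroup.orderOf_coe] at hg
    have hg1 : (g : G) ≠ 1 := by
      intro h
      rw [h, orderOf_one] at hg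
      have := hp.two_le
      have := hq.two_le
      nlinarith
    have := c.prime_order _ hg1
    rw [hg] at this
    exact Nat.not_prime_mul hp.one_lt.ne' hq.one_lt.ne' this
  have hk0 : k ≠ 0 := by
    rw [← hKc]; exact Nat.card_pos.ne'
  have hsqf : Squarefree k := by
    rw [Nat.squarefree_iff_prime_squarefree]
    intro p hp hpp
    have : Fact p.Prime := ⟨hp⟩
    obtain ⟨A, hA⟩ := Sylow.exists_subgroup_card_pow_prime (G := K) p (n := 2)
      (by rw [hKc, sq]; exact hpp)
    apply hno (A.map K.subtype) (map_subtype_le _) p p hp hp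
    rw [card_map_of_injective K.subtype_injective, hA, sq]
  have hkG : k ∣ Nat.card G := by
    rw [← hKc]; exact card_subgroup_dvd_card K
  have hsub : k.primeFactors ⊆ (Nat.card G).primeFactors.erase 2 := by
    intro p hp
    rw [Nat.mem_primeFactors] at hp
    rw [Finset.mem_erase, Nat.mem_primeFactors]
    refine ⟨?_, hp.1, hp.2.1.trans hkG, Nat.card_pos.ne'⟩
    rintro rfl
    exact hkodd hp.2.1
  have hcard2 : k.primeFactors.card ≤ 2 := by
    have h := Finset.card_le_card hsub
    rw [Finset.card_erase_of_mem (Nat.mem_primeFactors.2 ⟨Nat.prime_two, h2, Nat.card_pos.ne'⟩),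
      c.three] at h
    exact h
  have hprod := Nat.prod_primeFactors_of_squarefree hsqf
  have hkp : k.Prime := by
    have hcases : k.primeFactors.card = 0 ∨ k.primeFactors.card = 1 ∨ k.primeFactors.card = 2 := by
      omega
    rcases hcases with h | h | h
    · rw [Finset.card_eq_zero] at h
      rw [h, Finset.prod_empty] at hprod
      exact absurd hprod.symm hk1
    · obtain ⟨p, hp⟩ := Finset.card_eq_one.1 h
      rw [hp, Finset.prod_singleton] at hprod
      have : p ∈ k.primeFactors := by rw [hp]; exact Finset.mem_singleton_self p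
      rw [← hprod]
      exact (Nat.mem_primeFactors.1 this).1
    · obtain ⟨p, q, hpq, hp⟩ := Finset.card_eq_two.1 h
      rw [hp, Finset.prod_pair hpq] at hprod
      have hp' : p ∈ k.primeFactors := by rw [hp]; simp
      have hq' : q ∈ k.primeFactors := by rw [hp]; simp
      exact absurd (hKc.trans hprod.symm) (hno K le_rfl p q (Nat.mem_primeFactors.1 hp').1
        (Nat.mem_primeFactors.1 hq').1)
  refine ⟨k, hkp, ?_, hNc, ?_⟩
  · rintro rfl
    exact hkodd dvd_rfl
  · -- a generator of `K` acts on `T`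
    have : Fact k.Prime := ⟨hkp⟩
    obtain ⟨a, ha⟩ := exists_prime_orderOf_dvd_card' (G := K) k (by rw [hKc])
    have ha' : orderOf (a : G) = k := by rw [Subgroup.orderOf_coe]; exact ha
    have ha1 : (a : G) ≠ 1 := by
      intro h
      rw [h, orderOf_one] at ha'
      exact hk1 ha'.symm
    have haN : (a : G) ∈ normalizer ((T : Subgroup G) : Set G) := hKN a.2
    let f : Function.End (T : Subgroup G) := fun w =>
      ⟨(a : G) * w * (a : G)⁻¹, (mem_normalizer_iff.1 haN w).1 w.2⟩
    have hfn : ∀ (n : ℕ) (w : (T : Subgroup G)),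
        (((f ^ n) w : (T : Subgroup G)) : G) = (a : G) ^ n * w * ((a : G) ^ n)⁻¹ := by
      intro n
      induction n with
      | zero =>
        intro w
        rw [pow_zero, pow_zero]
        change (w : G) = 1 * w * 1⁻¹
        group
      | succ n ih =>
        intro w
        rw [pow_succ']
        change (a : G) * (((f ^ n) w : (T : Subgroup G)) : G) * (a : G)⁻¹ = _
        rw [ih, pow_succ']
        group
    have hfk : f ^ k ^ 1 = 1 := by
      funext w
      apply Subtype.ext
      rw [pow_one, hfn, ← ha', pow_orderOf_eq_one]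
      change 1 * (w : G) * 1⁻¹ = w
      group
    have : Fintype (T : Subgroup G) := Fintype.ofFinite _
    have hmod := Equiv.Perm.card_fixedPoints_modEq hfk
    have hfix : Fintype.card (Function.fixedPoints f) = 1 := by
      rw [Fintype.card_eq_one_iff]
      refine ⟨⟨1, ?_⟩, ?_⟩
      · apply Subtype.ext
        change (a : G) * 1 * (a : G)⁻¹ = 1
        group
      · rintro ⟨w, hw⟩
        apply Subtype.ext
        have hw' : (a : G) * w * (a : G)⁻¹ = w := congrArg Subtype.val hw
        have hmem : (w : G) ∈ (T : Subgroup G) ⊓ centralizer {(a : G)} := by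
          refine mem_inf.2 ⟨w.2, ?_⟩
          rw [mem_centralizer_singleton_iff]
          calc (w : G) * a = ((a : G) * w * (a : G)⁻¹) * a := by rw [hw']
            _ = a * w := by group
        rw [hfpf a a.2 ha1, mem_bot] at hmem
        exact Subtype.ext hmem
    rw [hfix, ← Nat.card_eq_fintype_card] at hmod
    exact (Nat.modEq_iff_dvd' Nat.card_pos).1 hmod.symm

end Cfsg.Agent.Lib.Helper59.FO
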