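import Cfsg.Agent.Lib.Helper59.FO.Base
import Cfsg.Agent.Lib.Helper59.FO.B1

/-! S4068 farm (helper59), piece R1 (helper95): an involution normalizing a Sylow subgroup inverts it. -/

set_option autoImplicit false
set_option linter.unusedSectionVars false
open Subgroup

namespace Cfsg.Agent.Lib.Helper59.FO

variable {G : Type*} [Group G] [Finite G]

namespace R1

/-- an element of a Sylow `s`-subgroup, `s ≠ 2`, does not have order `2`. -/
theorem order_ne_two {s : ℕ} [Fact s.Prime] (hs2 : s ≠ 2) (P : Sylow s G) {w : G}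
    (hw : w ∈ (P : Subgroup G)) : orderOf w ≠ 2 := by
  intro h
  obtain ⟨k, hk⟩ := P.2 ⟨w, hw⟩
  have h1 : w ^ s ^ k = 1 := congrArg Subtype.val hk
  have h2 : 2 ∣ s ^ k := h ▸ orderOf_dvd_of_pow_eq_one h1
  have h3 : 2 ∣ s := Nat.prime_two.dvd_of_dvd_pow h2
  exact hs2 ((Nat.prime_dvd_prime_iff_eq Nat.prime_two Fact.out).mp h3).symm

theorem sq_eq_one {d : G} (hd : orderOf d = 2) : d * d = 1 := by
  rw [← sq, ← hd]; exact pow_orderOf_eq_one d

theorem inv_eq_self {d : G} (hd : orderOf d = 2) : d⁻¹ = d :=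
  inv_eq_of_mul_eq_one_left (sq_eq_one hd)

end R1

open R1

-- R1
theorem invol_inverts (c : Cfg G) {s : ℕ} [Fact s.Prime] (hs2 : s ≠ 2) (P : Sylow s G) (d : G)
    (hd : orderOf d = 2) (hdN : d ∈ normalizer ((P : Subgroup G) : Set G)) :
    ∀ w ∈ (P : Subgroup G), d * w * d⁻¹ = w⁻¹ := by
  have hd1 : d ≠ 1 := by
    intro h; rw [h, orderOf_one] at hd; omega
  have hdd : d * d = 1 := sq_eq_one hd
  have hdi : d⁻¹ = d := inv_eq_self hd
  have hτ : ∀ w ∈ (P : Subgroup G), d * w * d⁻¹ ∈ (P : Subgroup G) := fun w hw =>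
    (mem_normalizer_iff.mp hdN w).mp hw
  have hfix : ∀ w ∈ (P : Subgroup G), d * w * d⁻¹ = w → w = 1 := by
    intro w hw h
    by_contra hw1
    have hc : Commute w d := by
      rw [mul_inv_eq_iff_eq_mul] at h
      exact h.symm
    have := commute_order c hw1 hd1 hc
    exact order_ne_two hs2 P hw (this.trans hd)
  let f : ↥(P : Subgroup G) → ↥(P : Subgroup G) := fun w =>
    ⟨w.1⁻¹ * (d * w.1 * d⁻¹), (P : Subgroup G).mul_mem ((P : Subgroup G).inv_mem w.2) (hτ w.1 w.2)⟩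
  have hinj : Function.Injective f := by
    intro w v h
    have h1 : w.1⁻¹ * (d * w.1 * d⁻¹) = v.1⁻¹ * (d * v.1 * d⁻¹) := congrArg Subtype.val h
    have h2 : d * (v.1 * w.1⁻¹) * d⁻¹ = v.1 * w.1⁻¹ := by
      have h3 : d * (v.1 * w.1⁻¹) * d⁻¹ = (d * v.1 * d⁻¹) * (d * w.1 * d⁻¹)⁻¹ := by
        simp only [mul_inv_rev, inv_inv, mul_assoc, inv_mul_cancel_left]
      have h4 : d * v.1 * d⁻¹ = v.1 * (w.1⁻¹ * (d * w.1 * d⁻¹)) := by
        rw [h1]; simp only [mul_inv_cancel_left]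
      rw [h3, h4]
      simp only [mul_assoc, mul_inv_cancel, mul_one]
    have h5 := hfix _ ((P : Subgroup G).mul_mem v.2 ((P : Subgroup G).inv_mem w.2)) h2
    apply Subtype.ext
    exact (mul_inv_eq_one.mp h5).symm
  have hsurj : Function.Surjective f := Finite.surjective_of_injective hinj
  intro w hw
  obtain ⟨u, hu⟩ := hsurj ⟨w, hw⟩
  have hu' : u.1⁻¹ * (d * u.1 * d⁻¹) = w := congrArg Subtype.val hu
  rw [← hu', hdi]
  have : d * (u.1⁻¹ * (d * u.1 * d)) * d = (d * u.1⁻¹ * d) * (u.1 * (d * d)) := by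
    simp only [mul_assoc]
  rw [this, hdd]
  simp only [mul_inv_rev, mul_one, inv_inv, hdi, mul_assoc]

-- R1
theorem not_real_odd (c : Cfg G) {s : ℕ} [Fact s.Prime] (hs2 : s ≠ 2) (hs : s ∣ Nat.card G)
    (h : ¬ IsReal G s) (P : Sylow s G) : ¬ 2 ∣ Nat.card (normalizer ((P : Subgroup G) : Set G)) := by
  intro h2
  have : Fact (Nat.Prime 2) := ⟨Nat.prime_two⟩
  obtain ⟨d, hd⟩ := exists_prime_orderOf_dvd_card' 2 h2
  obtain ⟨x, hx⟩ := exists_prime_orderOf_dvd_card' s (P.dvd_card_of_dvd_card hs)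
  rw [← Subgroup.orderOf_coe] at hd hx
  exact h ⟨d.1, x.1, hd, hx, invol_inverts c hs2 P d.1 hd d.2 x.1 x.2⟩

end Cfsg.Agent.Lib.Helper59.FO
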