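import Cfsg.Agent.Lib.Helper59.FO.Base
import Cfsg.Agent.Lib.Helper59.FO.B1
import Cfsg.Agent.Lib.Helper59.FO.R1

/-! S4068 farm (helper59), piece R2 (helper95). -/

set_option autoImplicit false
set_option linter.unusedSectionVars false
open Subgroup

namespace Cfsg.Agent.Lib.Helper59.FO

variable {G : Type*} [Group G] [Finite G]

namespace R2

/-- an element inverting `y` normalizes `C(y)`. -/
theorem mem_normalizer_centralizer {t y : G} (h : t * y * t⁻¹ = y⁻¹) :
    t ∈ normalizer ((centralizer ({y} : Set G) : Subgroup G) : Set G) := by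
  have h' : t⁻¹ * y * t = y⁻¹ := by
    have h1 : y = t⁻¹ * y⁻¹ * t := by rw [← h]; simp [mul_assoc]
    have h2 := congrArg (·⁻¹) h1
    simp only [mul_inv_rev, inv_inv] at h2
    rw [h2]; simp [mul_assoc]
  rw [mem_normalizer_iff]
  intro w
  rw [mem_centralizer_singleton_iff, mem_centralizer_singleton_iff]
  have e1 : t * w * t⁻¹ * y = t * (w * y⁻¹) * t⁻¹ := by
    rw [← h']; simp [mul_assoc]
  have e2 : y * (t * w * t⁻¹) = t * (y⁻¹ * w) * t⁻¹ := by
    rw [← h']; simp [mul_assoc]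
  rw [e1, e2]
  constructor
  · intro hw
    have : w * y⁻¹ = y⁻¹ * w := by
      rw [mul_inv_eq_iff_eq_mul, mul_assoc, hw]; simp
    rw [this]
  · intro hw
    have h3 : w * y⁻¹ = y⁻¹ * w := by
      have := mul_right_cancel hw
      exact mul_left_cancel this
    rw [mul_inv_eq_iff_eq_mul, mul_assoc, eq_inv_mul_iff_mul_eq] at h3
    exact h3.symm

end R2

-- R2
theorem real_core (c : Cfg G) {s : ℕ} [Fact s.Prime] (hs2 : s ≠ 2) (h : IsReal G s) (y : G)
    (hy : orderOf y = s) :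
    ∃ t : G, orderOf t = 2 ∧ ∀ w ∈ centralizer ({y} : Set G), t * w * t⁻¹ = w⁻¹ := by
  obtain ⟨t₀, x₀, ht₀, hx₀, hinv⟩ := h
  obtain ⟨α, hα⟩ := c.trans x₀ y (hx₀.trans hy.symm)
  have ht : orderOf (α t₀) = 2 := (MulEquiv.orderOf_eq α t₀).trans ht₀
  have hty : α t₀ * y * (α t₀)⁻¹ = y⁻¹ := by
    rw [← hα, ← map_inv, ← map_mul, ← map_mul, hinv, map_inv]
  obtain ⟨P, hP⟩ := centralizer_eq_sylow c y hy
  refine ⟨α t₀, ht, ?_⟩
  rw [← hP]
  refine invol_inverts c hs2 P (α t₀) ht ?_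
  rw [hP]
  exact R2.mem_normalizer_centralizer hty

end Cfsg.Agent.Lib.Helper59.FO
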