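import Cfsg.Agent.Lib.Helper59.FO.Base
import Cfsg.Agent.Lib.Helper59.FO.B1
import Cfsg.Agent.Lib.Helper59.FO.R1
import Cfsg.Agent.Lib.Helper59.FO.R2

/-! S4068 farm (helper59), piece R3 (helper95). -/

set_option autoImplicit false
set_option linter.unusedSectionVars false
open Subgroup

namespace Cfsg.Agent.Lib.Helper59.FO

variable {G : Type*} [Group G] [Finite G]

namespace R3

open R1

/-- in a Sylow `s`-subgroup, `s` odd, `e * e = 1` forces `e = 1`. -/
theorem eq_one_of_sq {s : ℕ} [Fact s.Prime] (hs2 : s ≠ 2) (P : Sylow s G) {e : G}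
    (he : e ∈ (P : Subgroup G)) (h : e * e = 1) : e = 1 := by
  by_contra h1
  exact order_ne_two hs2 P he (orderOf_eq_prime (by rw [sq]; exact h) h1)

/-- square roots in a Sylow `s`-subgroup, `s` odd. -/
theorem exists_sqrt {s : ℕ} [Fact s.Prime] (hs2 : s ≠ 2) (P : Sylow s G) {e : G}
    (he : e ∈ (P : Subgroup G)) : ∃ v ∈ (P : Subgroup G), v * v = e := by
  obtain ⟨k, hk⟩ := P.2 ⟨e, he⟩
  have h1 : e ^ s ^ k = 1 := congrArg Subtype.val hk
  have hodd : Odd (s ^ k) := ((Fact.out : s.Prime).odd_of_ne_two hs2).pow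
  obtain ⟨m, hm⟩ := hodd
  refine ⟨e ^ (m + 1), (P : Subgroup G).pow_mem he _, ?_⟩
  rw [← pow_add]
  have : m + 1 + (m + 1) = s ^ k + 1 := by omega
  rw [this, pow_succ, h1, one_mul]

end R3

open R1 R3

-- R3
theorem real_struct (c : Cfg G) {s : ℕ} [Fact s.Prime] (hs2 : s ≠ 2) (h : IsReal G s) (P : Sylow s G) :
    (∀ x ∈ (P : Subgroup G), ∀ y ∈ (P : Subgroup G), x * y = y * x) ∧
      Nat.card (normalizer ((P : Subgroup G) : Set G)) = 2 * Nat.card (P : Subgroup G) := by
  have hs : s ∣ Nat.card G := by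
    obtain ⟨_, x, _, hx, _⟩ := h
    rw [← hx]; exact orderOf_dvd_natCard x
  obtain ⟨z, hz, hPz⟩ := sylow_eq_centralizer c hs P
  obtain ⟨t, ht, htinv⟩ := real_core c hs2 h z hz
  rw [← hPz] at htinv
  have htt : t * t = 1 := sq_eq_one ht
  have hti : t⁻¹ = t := inv_eq_self ht
  have ht1 : t ≠ 1 := by
    intro h; rw [h, orderOf_one] at ht; omega
  have hzP : z ∈ (P : Subgroup G) := by
    rw [hPz]; exact mem_centralizer_singleton_iff.mpr rfl
  have htP : t ∉ (P : Subgroup G) := fun h => order_ne_two hs2 P h ht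
  have hcomm : ∀ x ∈ (P : Subgroup G), ∀ y ∈ (P : Subgroup G), x * y = y * x := by
    intro a ha b hb
    have h1 := htinv (a * b) ((P : Subgroup G).mul_mem ha hb)
    have h2 : t * (a * b) * t⁻¹ = (t * a * t⁻¹) * (t * b * t⁻¹) := by
      simp only [mul_assoc, inv_mul_cancel_left]
    rw [h2, htinv a ha, htinv b hb, ← mul_inv_rev] at h1
    exact (inv_injective h1).symm
  refine ⟨hcomm, ?_⟩
  set N := normalizer ((P : Subgroup G) : Set G) with hN
  have hPN : (P : Subgroup G) ≤ N := le_normalizer
  have htN : t ∈ N := by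
    rw [hN, mem_normalizer_iff]
    intro w
    constructor
    · intro hw; rw [htinv w hw]; exact (P : Subgroup G).inv_mem hw
    · intro hw
      have h1 := htinv _ hw
      have h2 : t * (t * w * t⁻¹) * t⁻¹ = w := by
        rw [hti]
        calc t * (t * w * t) * t = (t * t) * w * (t * t) := by simp only [mul_assoc]
          _ = w := by rw [htt]; simp
      rw [h2] at h1
      rw [h1]; exact (P : Subgroup G).inv_mem hw
  -- main claim
  have hmain : ∀ n ∈ N, n ∈ (P : Subgroup G) ∨ n * t ∈ (P : Subgroup G) := by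
    intro n hn
    set t' := n * t * n⁻¹ with ht'
    have ht'o : orderOf t' = 2 := by
      rw [ht', ← ht]
      exact MulEquiv.orderOf_eq (MulAut.conj n) t
    have ht'N : t' ∈ N := N.mul_mem (N.mul_mem hn htN) (N.inv_mem hn)
    have ht'inv := invol_inverts c hs2 P t' ht'o ht'N
    -- e = t⁻¹ t' ∈ P
    have heP : t * t' ∈ (P : Subgroup G) := by
      rw [hPz, mem_centralizer_singleton_iff]
      have h1 := ht'inv z hzP
      have h2 := htinv z⁻¹ ((P : Subgroup G).inv_mem hzP)
      rw [inv_inv, ← h1, hti] at h2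
      -- t * (t' z t'⁻¹) * t = z
      have h3 : t * t' * z = z * (t * t') := by
        calc t * t' * z = (t * (t' * z * t'⁻¹) * t) * (t * t') := by
              have : t * (t' * z * t'⁻¹) * t * (t * t') = t * t' * z * t'⁻¹ * (t * t) * t' := by
                simp only [mul_assoc]
              rw [this, htt]; simp [mul_assoc]
          _ = z * (t * t') := by rw [h2]
      exact h3
    obtain ⟨v₀, hv₀, hvv⟩ := exists_sqrt hs2 P heP
    -- v = v₀⁻¹ : v t v⁻¹ = t v⁻² = t (t t') = t'
    set v := v₀⁻¹ with hv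
    have hvP : v ∈ (P : Subgroup G) := (P : Subgroup G).inv_mem hv₀
    have hvt : v * t * v⁻¹ = t' := by
      have h1 := htinv v hvP
      -- t v t⁻¹ = v⁻¹  so v t = t v⁻¹ ... (t v t = v⁻¹ → v t = t v⁻¹)
      have h2 : v * t = t * v⁻¹ := by
        rw [← h1, hti]
        calc v * t = (t * t) * v * t := by rw [htt]; simp
          _ = t * (t * v * t) := by simp only [mul_assoc]
      rw [h2, hv, inv_inv, mul_assoc, hvv, ← mul_assoc, htt, one_mul]
    set d := v⁻¹ * n with hd
    have hdN : d ∈ N := N.mul_mem (N.inv_mem (hPN hvP)) hn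
    have hdt : Commute d t := by
      have h1 : d * t * d⁻¹ = t := by
        have : d * t * d⁻¹ = v⁻¹ * (n * t * n⁻¹) * v := by
          rw [hd]; simp only [mul_inv_rev, inv_inv, mul_assoc]
        rw [this, ← ht', ← hvt]; simp [mul_assoc]
      rw [mul_inv_eq_iff_eq_mul] at h1
      exact h1
    have hn_eq : n = v * d := by rw [hd]; simp
    by_cases hd1 : d = 1
    · left; rw [hn_eq, hd1, mul_one]; exact hvP
    · right
      have hdo : orderOf d = 2 := (commute_order c hd1 ht1 hdt).trans ht
      have hdinv := invol_inverts c hs2 P d hdo hdN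
      have hdtP : d * t ∈ (P : Subgroup G) := by
        rw [hPz, mem_centralizer_singleton_iff]
        have h1 := htinv z hzP
        have h2 := hdinv z⁻¹ ((P : Subgroup G).inv_mem hzP)
        rw [inv_inv, ← h1] at h2
        -- d (t z t⁻¹) d⁻¹ = z
        calc d * t * z = (d * (t * z * t⁻¹) * d⁻¹) * (d * t) := by simp [mul_assoc]
          _ = z * (d * t) := by rw [h2]
      have hsq : (d * t) * (d * t) = 1 := by
        calc (d * t) * (d * t) = d * (t * d) * t := by simp only [mul_assoc]
          _ = d * (d * t) * t := by rw [hdt.eq]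
          _ = (d * d) * (t * t) := by simp only [mul_assoc]
          _ = 1 := by rw [htt, sq_eq_one hdo, one_mul]
      have hdt1 := eq_one_of_sq hs2 P hdtP hsq
      rw [hn_eq, mul_assoc, hdt1, mul_one]
      exact hvP
  -- index two
  have hidx : ((P : Subgroup G).subgroupOf N).index = 2 := by
    rw [Subgroup.index_eq_two_iff]
    refine ⟨⟨t, htN⟩, fun b => ?_⟩
    simp only [mem_subgroupOf, Subgroup.coe_mul]
    rcases hmain b.1 b.2 with hb | hb
    · right
      refine ⟨hb, fun hbt => htP ?_⟩
      have := (P : Subgroup G).mul_mem ((P : Subgroup G).inv_mem hb) hbt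
      simpa using this
    · left
      refine ⟨hb, fun hb' => htP ?_⟩
      have := (P : Subgroup G).mul_mem ((P : Subgroup G).inv_mem hb') hb
      simpa using this
  have h1 := Subgroup.index_mul_card ((P : Subgroup G).subgroupOf N)
  rw [hidx, Nat.card_congr (Subgroup.subgroupOfEquivOfLe hPN).toEquiv] at h1
  exact h1.symm

end Cfsg.Agent.Lib.Helper59.FO
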