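import Cfsg.Agent.Lib.Helper59.FO.Base
import Cfsg.Agent.Lib.Helper59.FO.B1
import Cfsg.Agent.Lib.Helper59.FO.B2
import Cfsg.Agent.Lib.Helper59.FO.R1
import Cfsg.Agent.Lib.Helper59.FO.R2

/-! S4068 farm (helper59), piece R4 (helper95). -/

set_option autoImplicit false
set_option linter.unusedSectionVars false
open Subgroup

namespace Cfsg.Agent.Lib.Helper59.FO

variable {G : Type*} [Group G] [Finite G]

open R1

-- R4
theorem real_count (c : Cfg G) {s : ℕ} [Fact s.Prime] (hs2 : s ≠ 2) (h : IsReal G s) (y : G)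
    (hy : orderOf y = s) :
    Nat.card {t : G // orderOf t = 2 ∧ t * y * t⁻¹ = y⁻¹} = sy G s := by
  obtain ⟨P, hP⟩ := centralizer_eq_sylow c y hy
  obtain ⟨t, ht, htinv⟩ := real_core c hs2 h y hy
  have htt : t * t = 1 := sq_eq_one ht
  have hti : t⁻¹ = t := inv_eq_self ht
  have hyC : y ∈ centralizer ({y} : Set G) := mem_centralizer_singleton_iff.mpr rfl
  have hty : t * y * t⁻¹ = y⁻¹ := htinv y hyC
  have htP : t ∉ centralizer ({y} : Set G) := fun h => order_ne_two hs2 P (hP ▸ h) ht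
  rw [← card_sylow s P, hP]
  refine Nat.card_congr
    { toFun := fun t' => ⟨t * t'.1, ?_⟩
      invFun := fun w => ⟨t * w.1, ?_, ?_⟩
      left_inv := ?_
      right_inv := ?_ }
  · -- t t' centralizes y
    rw [mem_centralizer_singleton_iff]
    have h1 := t'.2.2
    have h2 : t * y⁻¹ * t⁻¹ = y := by
      have := htinv y⁻¹ ((centralizer ({y} : Set G)).inv_mem hyC)
      rwa [inv_inv] at this
    calc t * t'.1 * y = (t * (t'.1 * y * t'.1⁻¹) * t⁻¹) * (t * t'.1) := by simp [mul_assoc]
      _ = y * (t * t'.1) := by rw [h1, h2]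
  · -- order two
    have h1 := htinv w.1 w.2
    have hsq : (t * w.1) ^ 2 = 1 := by
      rw [sq]
      calc t * w.1 * (t * w.1) = (t * w.1 * t⁻¹) * w.1 := by rw [hti]; simp only [mul_assoc]
        _ = 1 := by rw [h1]; simp
    refine orderOf_eq_prime hsq ?_
    intro h2
    apply htP
    have : t = w.1⁻¹ := eq_inv_of_mul_eq_one_left h2
    rw [this]; exact (centralizer ({y} : Set G)).inv_mem w.2
  · have h1 := mem_centralizer_singleton_iff.mp w.2
    have h2 : w.1 * y * w.1⁻¹ = y := by rw [h1]; simp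
    calc t * w.1 * y * (t * w.1)⁻¹ = t * (w.1 * y * w.1⁻¹) * t⁻¹ := by
          simp only [mul_inv_rev, mul_assoc]
      _ = y⁻¹ := by rw [h2, hty]
  · intro t'
    apply Subtype.ext
    show t * (t * t'.1) = t'.1
    rw [← mul_assoc, htt, one_mul]
  · intro w
    apply Subtype.ext
    show t * (t * w.1) = w.1
    rw [← mul_assoc, htt, one_mul]

end Cfsg.Agent.Lib.Helper59.FO
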